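import Cfsg.Agent.H113.PSU.Descent
import Cfsg.Agent.H664.Eight.Base
import Cfsg.Agent.H670.PSing

/-!
# From `GU_n(q)` to `PSU_n(q)`, with a sharper bound for the index (helper7)

`exists_psu'` : an irreducible character of `GU_n(q)` of degree `d`, trivial on the centre of `SU_n(q)`, gives a degree
`e` of `PSU_n(q)` with `e t = d`, `t` dividing the index of `SU_n(q) Z(GU_n(q))`.
-/

set_option autoImplicit false
set_option linter.unusedSectionVars false

open scoped ComplexConjugate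

namespace Cfsg.Agent.H7.Eight.UnDown

open Cfsg Cfsg.Agent.LieClassical.HermBasic Cfsg.Agent.LieClassical.HermSiegel Cfsg.Agent.Characters
open Cfsg.Agent.H477.HC Cfsg.Agent.H113.PSU.Descent Cfsg.Agent.H53.HC

universe u

/-- restriction to a subgroup which, together with the centre, is the whole group -/
theorem restrict_irr {M : Type*} [Group M] [Finite M] (N : Subgroup M)
    (hM : ∀ m : M, ∃ n ∈ N, ∃ z ∈ Subgroup.center M, m = n * z) {θ : M → ℂ} (hθ : IsIrrCharacter M θ) :
    IsIrrCharacter N (θ ∘ N.subtype) := by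
  classical
  let _ : Fintype M := Fintype.ofFinite M
  let _ : Fintype N := Fintype.ofFinite N
  let _ : Fintype (Subgroup.center M) := Fintype.ofFinite _
  have hsc : ∀ z ∈ Subgroup.center M, ∃ l : ℂ, ‖l‖ = 1 ∧ ∀ n, θ (n * z) = l * θ n := by
    intro z hz
    obtain ⟨l, hl⟩ := central_mul hθ hz
    refine ⟨l, ?_, hl⟩
    have h1 : ∀ k : ℕ, θ (z ^ k) = l ^ k * θ 1 := by
      intro k
      induction k with
      | zero => rw [pow_zero, pow_zero, one_mul]
      | succ k ih => rw [pow_succ, hl, ih, pow_succ]; ring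
    have h2 := h1 (Nat.card M)
    rw [pow_card_eq_one'] at h2
    have h3 : l ^ Nat.card M = 1 := by
      have h4 : (l ^ Nat.card M - 1) * θ 1 = 0 := by rw [sub_mul, one_mul, ← h2, sub_self]
      exact sub_eq_zero.1 ((mul_eq_zero.1 h4).resolve_right (Core.isIrr_apply_one_ne_zero hθ))
    exact Complex.norm_eq_one_of_pow_eq_one h3 Nat.card_pos.ne'
  let π : N × Subgroup.center M →* M :=
    { toFun := fun x => (x.1 : M) * (x.2 : M)
      map_one' := by simp
      map_mul' := fun x y => by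
        have h := Subgroup.mem_center_iff.1 x.2.2 y.1
        change ((x.1 : M) * (y.1 : M)) * ((x.2 : M) * (y.2 : M)) = (x.1 : M) * (x.2 : M) * ((y.1 : M) * (y.2 : M))
        calc ((x.1 : M) * (y.1 : M)) * ((x.2 : M) * (y.2 : M)) = (x.1 : M) * ((y.1 : M) * (x.2 : M)) * (y.2 : M) := by group
          _ = (x.1 : M) * ((x.2 : M) * (y.1 : M)) * (y.2 : M) := by rw [h]
          _ = _ := by group }
  have hπ : Function.Surjective π := by
    intro m
    obtain ⟨n, hn, z, hz, rfl⟩ := hM m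
    exact ⟨(⟨n, hn⟩, ⟨z, hz⟩), rfl⟩
  apply Core.isIrr_of_classInner_self (Core.isCharacter_comp N.subtype (Core.isIrr_isCharacter hθ))
  have h1 := Core.classInner_irr_self hθ
  rw [Core.classInner_def] at h1 ⊢
  have h2 := sum_comp_hom π hπ (fun m => θ m * conj (θ m))
  have h3 : ∑ x : N × Subgroup.center M, (fun m => θ m * conj (θ m)) (π x) =
      (Nat.card (Subgroup.center M) : ℂ) * ∑ n : N, θ n * conj (θ n) := by
    rw [Fintype.sum_prod_type_right]
    have e1 : ∀ z : Subgroup.center M, ∑ n : N, (fun m => θ m * conj (θ m)) (π (n, z)) =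
        ∑ n : N, θ n * conj (θ n) := by
      intro z
      obtain ⟨l, hl1, hl⟩ := hsc z z.2
      refine Finset.sum_congr rfl fun n _ => ?_
      change θ ((n : M) * (z : M)) * conj (θ ((n : M) * (z : M))) = _
      rw [hl, map_mul]
      have h4 : l * conj l = 1 := by
        rw [Complex.mul_conj, Complex.normSq_eq_norm_sq, hl1]
        norm_num
      linear_combination (θ n * conj (θ n)) * h4
    rw [Finset.sum_congr rfl fun z _ => e1 z, Finset.sum_const, Finset.card_univ, ← Nat.card_eq_fintype_card,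
      nsmul_eq_mul]
  rw [h3] at h2
  have hcM : (Nat.card M : ℂ) ≠ 0 := Core.card_ne_zero_complex
  have hcN : (Nat.card N : ℂ) ≠ 0 := Core.card_ne_zero_complex
  have hcZ : (Nat.card (Subgroup.center M) : ℂ) ≠ 0 := Core.card_ne_zero_complex
  have h5 : ∑ m : M, θ m * conj (θ m) = Nat.card M := by
    field_simp at h1
    exact h1
  rw [h5] at h2
  have h6 : (Nat.card π.ker : ℂ) * Nat.card M = Nat.card N * Nat.card (Subgroup.center M) := by
    have h7 := Subgroup.card_eq_card_quotient_mul_card_subgroup π.ker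
    rw [Nat.card_congr (QuotientGroup.quotientKerEquivOfSurjective π hπ).toEquiv, Nat.card_prod] at h7
    rw [← Nat.cast_mul, ← Nat.cast_mul, h7, mul_comm]
  rw [h6] at h2
  have h8 : ∑ n : N, θ n * conj (θ n) = Nat.card N := by
    apply mul_left_cancel₀ hcZ
    rw [h2]
    ring
  change (Nat.card N : ℂ)⁻¹ * ∑ n : N, θ n * conj (θ n) = 1
  rw [h8, inv_mul_cancel₀ hcN]

/-- descent through a normal subgroup `M = N Z`, `Z` central -/
theorem down_abs {I : Type u} [Group I] [Finite I] (N M : Subgroup I) [M.Normal] (hNM : N ≤ M)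
    (hM : ∀ m ∈ M, ∃ n ∈ N, ∃ z ∈ Subgroup.center I, m = n * z) {χ : I → ℂ} (hχ : IsIrrCharacter I χ) {d : ℕ}
    (hd : χ 1 = d) :
    ∃ (θ : N → ℂ) (e t : ℕ), IsIrrCharacter N θ ∧ θ 1 = e ∧ e * t = d ∧ t ∣ M.index ∧
      ∀ z : N, (z : I) ∈ Subgroup.center I → χ z = χ 1 → θ z = θ 1 := by
  classical
  obtain ⟨θ, e, hθ, he, h3, h4, h5, h6⟩ := down_constituent M hχ hd
  have hθN : IsIrrCharacter (N.subgroupOf M) (θ ∘ (N.subgroupOf M).subtype) := by
    refine restrict_irr (N.subgroupOf M) (fun m => ?_) hθ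
    obtain ⟨x, hx, z, hz, h⟩ := hM m m.2
    have hz' : z ∈ M := by
      have : z = x⁻¹ * m := by rw [h]; group
      rw [this]
      exact M.mul_mem (M.inv_mem (hNM hx)) m.2
    refine ⟨⟨x, hNM hx⟩, hx, ⟨z, hz'⟩, ?_, Subtype.ext h⟩
    rw [Subgroup.mem_center_iff]
    intro g
    exact Subtype.ext (Subgroup.mem_center_iff.1 hz g)
  have hθ' := Core.isIrr_comp (Subgroup.subgroupOfEquivOfLe hNM).symm.toMonoidHom
    (Subgroup.subgroupOfEquivOfLe hNM).symm.surjective hθN
  have hval : ∀ g : N, ((θ ∘ (N.subgroupOf M).subtype) ∘ (Subgroup.subgroupOfEquivOfLe hNM).symm.toMonoidHom) g =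
      θ ⟨g, hNM g.2⟩ := fun g => rfl
  refine ⟨_, e, d / e, hθ', ?_, Nat.mul_div_cancel' h3, h4, fun z hz hz' => ?_⟩
  · rw [hval]
    exact he
  · rw [hval, hval]
    refine h6 ⟨z, hNM z.2⟩ ?_ hz'
    rw [Subgroup.mem_center_iff]
    intro g
    exact Subtype.ext (Subgroup.mem_center_iff.1 hz g)

variable {F : Type u} [Field F] [Fintype F] {q n : ℕ}

/-- `SU_n(q) Z(GU_n(q))` -/
def MM (n : ℕ) (F : Type u) [Field F] (q : ℕ) : Subgroup (GU n F q) := NN n F q ⊔ Subgroup.center (GU n F q)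

instance MM_normal : (MM n F q).Normal := by
  unfold MM
  infer_instance

theorem index_MM (hF : Fintype.card F = q ^ 2) (hn : 1 ≤ n) : (MM n F q).index ∣ q + 1 := by
  rw [← index_NN hF hn]
  exact Subgroup.index_dvd_of_le le_sup_left

theorem scalar_center {z : GU n F q} {c : F}
    (h : ∀ v, ((z : GL (Fin n) F) : Matrix (Fin n) (Fin n) F).mulVec v = c • v) : z ∈ Subgroup.center (GU n F q) := by
  have h7 : ((z : GL (Fin n) F) : Matrix (Fin n) (Fin n) F) = c • (1 : Matrix (Fin n) (Fin n) F) := by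
    apply Matrix.ext_iff_mulVec.2
    intro v
    rw [Matrix.smul_mulVec, Matrix.one_mulVec]
    exact h v
  rw [Subgroup.mem_center_iff]
  intro g
  apply Subtype.ext
  apply Units.ext
  change ((g : GL (Fin n) F) : Matrix (Fin n) (Fin n) F) * ((z : GL (Fin n) F) : Matrix (Fin n) (Fin n) F) =
    ((z : GL (Fin n) F) : Matrix (Fin n) (Fin n) F) * ((g : GL (Fin n) F) : Matrix (Fin n) (Fin n) F)
  rw [h7, Matrix.mul_smul, Matrix.smul_mul, mul_one, one_mul]

/-- **descent to `PSU`** -/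
theorem exists_psu' (hF : Fintype.card F = q ^ 2) (hn : 3 ≤ n) {χ : GU n F q → ℂ} (hχ : IsIrrCharacter _ χ) {d : ℕ}
    (hd : χ 1 = d) (hz : ∀ (z : GU n F q) (c : F), c ^ (q + 1) = 1 → c ^ n = 1 →
      (∀ v, ((z : GL (Fin n) F) : Matrix (Fin n) (Fin n) F).mulVec v = c • v) → χ z = χ 1) :
    ∃ e t : ℕ, e ∈ charDegrees (PSU n F q) ∧ e * t = d ∧ t ∣ (MM n F q).index := by
  classical
  obtain ⟨θ, e, t, hθ, he, h3, h4, h6⟩ := down_abs (NN n F q) (MM n F q) le_sup_left (fun m hm => by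
    obtain ⟨x, hx, z, hz, h⟩ := Subgroup.mem_sup_of_normal_right.1 hm
    exact ⟨x, hx, z, hz, h.symm⟩) hχ hd
  have hθ' : IsIrrCharacter (SU n F q) (θ ∘ (eSU n F q).toMonoidHom) :=
    Core.isIrr_comp (eSU n F q).toMonoidHom (eSU n F q).surjective hθ
  obtain ⟨η, hη, hη'⟩ := exists_quot (Subgroup.center (SU n F q)) hθ' (fun z hzc => by
    obtain ⟨c, hcn, hcq, rfl⟩ := (Cfsg.Agent.LieClassical.SUBasic.mem_center_SU_iff hF hn z).1 hzc
    have hact : ∀ v, act (Cfsg.Agent.LieClassical.SUBasic.suScalar q c hcn hcq) v = c • v := fun v =>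
      Cfsg.Agent.ClassicalGeometry.PSUAutBasic.act_suScalar hcn hcq v
    change θ (eSU n F q _) = θ (eSU n F q 1)
    rw [map_one]
    refine h6 _ (scalar_center (c := c) fun v => ?_) (hz _ c hcq hcn fun v => ?_)
    · rw [eSU_val, hact]
    · rw [eSU_val, hact])
  refine ⟨e, t, ⟨⟨η, hη⟩, ?_⟩, h3, h4⟩
  apply H670.PSing.charDegree_eq_of
  change η 1 = e
  rw [← he]
  have h8 := hη' 1
  rw [QuotientGroup.mk_one] at h8
  rw [h8]
  change θ (eSU n F q 1) = θ 1
  rw [map_one]

end Cfsg.Agent.H7.Eight.UnDown
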