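import Cfsg.Agent.H7.Eight.UnSt
import Cfsg.Agent.H7.Eight.UnDown
import Cfsg.Agent.H345.CusU
import Cfsg.Agent.H113.PSU.Facts

/-!
# Degrees of `PSU_n(q)` from Harish-Chandra induction (helper7)

`DG F q n d` : there is a degree `e` of `PSU n F q` with `e t = d`, `t` dividing the index of `SU Z(GU)` in `GU`.
`dg_one` : `k ≥ 2`, trivial character; `dg_st` : `k ≥ 2`, Steinberg character of `GU_2`, `GU_3`;
`dg_pt` : `k = 1`; `dg_pt_st`, `dg_pt_hc` : `k = 1`, `n = 5`.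
-/

set_option autoImplicit false
set_option linter.unusedSectionVars false

open scoped ComplexConjugate
open Cfsg

namespace Cfsg.Agent.H7.Eight.UnDegs

open Cfsg.Agent.Characters Module Cfsg.Agent.H53.HC Cfsg.Agent.H477.HC Cfsg.Agent.H477.HC.CForm Cfsg.Agent.H749.Two
open Cfsg.Agent.H7.Eight.UnFrame Cfsg.Agent.H7.Eight.UnSum Cfsg.Agent.H7.Eight.UnSt Cfsg.Agent.H7.Eight.UnDown
open Cfsg.Agent.H7.Eight.UnVan
open Cfsg.Agent.H113.PSL.Hyper Cfsg.Agent.H113.Two.HcOne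

universe u

/-- the degrees obtained from characters of `GU` -/
def DG (F : Type u) [Field F] [Fintype F] (q n d : ℕ) : Prop :=
  ∃ e t : ℕ, e ∈ charDegrees (PSU n F q) ∧ e * t = d ∧ t ∣ (MM n F q).index

variable {F : Type u} [Field F] [Fintype F] {q : ℕ}

/-- from the isometry group -/
theorem to_psu (hF : Fintype.card F = q ^ 2) (hq : Nat.card F = q ^ 2) {n : ℕ} (hn : 3 ≤ n)
    {χ : (hermF F hq n).iso → ℂ} (hχ : IsIrrCharacter _ χ) {d : ℕ} (hd : χ 1 = d)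
    (hz : ∀ (z : (hermF F hq n).iso) (a : Fˣ), a ^ (q + 1) = 1 → a ^ n = 1 →
      (∀ v, (z : (Fin n → F) ≃ₗ[F] (Fin n → F)) v = (a : F) • v) → χ z = χ 1) : DG F q n d := by
  refine exists_psu' hF hn (χ := χ ∘ (isoGU hq n).toMonoidHom)
    (Core.isIrr_comp (isoGU hq n).toMonoidHom (isoGU hq n).surjective hχ) ?_ ?_
  · change χ (isoGU hq n 1) = _
    rw [map_one, hd]
  · intro z c hcq hcn hz'
    change χ (isoGU hq n z) = χ (isoGU hq n 1)
    rw [map_one]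
    have hc0 : c ≠ 0 := by
      rintro rfl
      rw [zero_pow (Nat.succ_ne_zero q)] at hcq
      exact zero_ne_one hcq
    refine hz _ (Units.mk0 c hc0) ?_ ?_ fun v => ?_
    · apply Units.ext
      rw [Units.val_pow_eq_pow_val, Units.val_mk0, Units.val_one, hcq]
    · apply Units.ext
      rw [Units.val_pow_eq_pow_val, Units.val_mk0, Units.val_one, hcn]
    · rw [isoGU_apply, hz' v, Units.val_mk0]

/-- **`k ≥ 2`, the trivial character** -/
theorem dg_one (hF : Fintype.card F = q ^ 2) (hq : Nat.card F = q ^ 2) {k : ℕ} (hk : 2 ≤ k) (n : ℕ) :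
    DG F q (k + (k + n)) (dg (hermF F hq (k + (k + n))) k) := by
  obtain ⟨c, hc⟩ := Cfsg.Agent.H345.CusU.exists_cusU hq k hk
  obtain ⟨W₀, hW₀, -⟩ := hermF_cmp hq k n
  obtain ⟨χ, hχ, hχ1, hχz⟩ := exists_char (hermF F hq (k + (k + n))) hW₀ hc
  exact to_psu hF hq (by omega) hχ hχ1 fun z a ha _ hz => hχz z a ha hz

/-- **`k ≥ 2`, the Steinberg character of `GU_2` and `GU_3`** -/
theorem dg_st (hF : Fintype.card F = q ^ 2) (hq : Nat.card F = q ^ 2) {p : ℕ} [Fact p.Prime] [CharP F p] {k : ℕ}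
    (hk : 2 ≤ k) {n : ℕ} (hn : n ≤ 1) :
    ∃ m, 0 < m ∧ DG F q (k + (k + (1 + (1 + n)))) (dg (hermF F hq (k + (k + (1 + (1 + n))))) k * p ^ m) := by
  classical
  obtain ⟨c, hc⟩ := Cfsg.Agent.H345.CusU.exists_cusU hq k hk
  obtain ⟨W₀, hW₀, h⟩ := hermF_cmp hq k (1 + (1 + n))
  obtain ⟨m, hm0, hirr, hdeg, hsc⟩ := st_herm (p := p) hq hn
  obtain ⟨χ, hχ, hχ1, hχz⟩ := exists_hc h hc hW₀ hirr (no_disj' hq (by omega) hW₀)
  refine ⟨m, hm0, to_psu hF hq (by omega) hχ ?_ fun z a ha _ hz => hχz z a hz fun z' hz' => ?_⟩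
  · rw [hχ1, hdeg, Nat.cast_mul]
  · rw [hc.scal a ha, hsc z' a hz']

/-- a faithful linear character of the multiplicative group -/
theorem exists_faithful (F : Type u) [Field F] [Fintype F] : ∃ φ : Fˣ →* ℂˣ, Function.Injective φ := by
  classical
  have h0 : NeZero (Nat.card Fˣ) := ⟨Nat.card_pos.ne'⟩
  let e : Fˣ ≃* rootsOfUnity (Nat.card Fˣ) ℂ :=
    mulEquivOfCyclicCardEq (Complex.card_rootsOfUnity _).symm
  exact ⟨(rootsOfUnity (Nat.card Fˣ) ℂ).subtype.comp e.toMonoidHom, Subtype.val_injective.comp e.injective⟩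

/-- a generator -/
theorem exists_gen (hq : Nat.card F = q ^ 2) : ∃ g : Fˣ, ∀ j, g ^ j = 1 ↔ (q - 1) * (q + 1) ∣ j := by
  obtain ⟨g, hg⟩ := IsCyclic.exists_generator (α := Fˣ)
  have hord : orderOf g = (q - 1) * (q + 1) := by
    rw [orderOf_eq_card_of_forall_mem_zpowers hg, Nat.card_units, hq]
    exact Cfsg.Agent.H113.PSU.Facts.sq_sub (by have := two_le_of_card hq; omega)
  exact ⟨g, fun j => by rw [← orderOf_dvd_iff_pow_eq_one, hord]⟩

theorem map_powHom (hq : Nat.card F = q ^ 2) (z : Fˣ) : Units.map (powHom hq : F →* F) z = z ^ q := by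
  apply Units.ext
  rw [Units.val_pow_eq_pow_val]
  exact powHom_apply hq z

/-- the linear character used for `k = 1` -/
theorem exists_theta_one (hq : Nat.card F = q ^ 2) {n : ℕ} (h : 4 ≤ q ∨ (q = 3 ∧ Odd n)) :
    ∃ θ : Fˣ →* ℂˣ, (∃ z : Fˣ, θ (z * Units.map (powHom hq : F →* F) z) ≠ 1) ∧
      ∀ a : Fˣ, a ^ (q + 1) = 1 → a ^ n = 1 → θ a = 1 := by
  obtain ⟨φ, hφ⟩ := exists_faithful F
  obtain ⟨g, hg⟩ := exists_gen hq
  rcases h with h | ⟨h, hn⟩
  · refine ⟨φ ^ (q + 1), ⟨g, fun h1 => ?_⟩, fun a ha _ => ?_⟩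
    · rw [map_powHom, MonoidHom.pow_apply, ← map_pow, ← map_one φ] at h1
      have h2 := hφ h1
      rw [← pow_succ', ← pow_mul, hg] at h2
      have h3 := Nat.dvd_of_mul_dvd_mul_right (by omega) h2
      have h4 : q - 1 ∣ 2 := by
        have h5 : q + 1 = (q - 1) + 2 := by omega
        rw [h5] at h3
        exact (Nat.dvd_add_right (dvd_refl _)).1 h3
      have := Nat.le_of_dvd (by norm_num) h4
      omega
    · rw [MonoidHom.pow_apply, ← map_pow, ha, map_one]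
  · refine ⟨φ, ⟨g, fun h1 => ?_⟩, fun a ha ha' => ?_⟩
    · rw [map_powHom, ← map_one φ] at h1
      have h2 := hφ h1
      rw [← pow_succ', hg, h] at h2
      revert h2
      decide
    · have h1 : orderOf a ∣ 2 ^ 2 := orderOf_dvd_of_pow_eq_one (by
        have h5 := ha
        rw [h] at h5
        exact h5)
      have h2 : orderOf a ∣ n := orderOf_dvd_of_pow_eq_one ha'
      have h3 : Nat.Coprime (2 ^ 2) n := Nat.Coprime.pow_left 2 (Nat.coprime_two_left.2 hn)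
      have h4 : a = 1 := orderOf_eq_one_iff.1 (Nat.eq_one_of_dvd_coprimes h3 h1 h2)
      rw [h4, map_one]

/-- **`k = 1`, the trivial character** -/
theorem dg_pt (hF : Fintype.card F = q ^ 2) (hq : Nat.card F = q ^ 2) {n : ℕ} (hn : 1 ≤ n)
    (h : 4 ≤ q ∨ (q = 3 ∧ Odd (1 + (1 + n)))) :
    DG F q (1 + (1 + n)) (dg (hermF F hq (1 + (1 + n))) 1) := by
  obtain ⟨θ, hθ, hθ1⟩ := exists_theta_one hq h
  obtain ⟨W₀, hW₀, -⟩ := hermF_cmp hq 1 n
  obtain ⟨χ, hχ, hχ1, hχz⟩ := exists_one hW₀ hθ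
  exact to_psu hF hq (by omega) hχ
    (by rw [hχ1, Cfsg.Agent.H113.Two.HcOne.dg_one]) fun z a ha ha' hz => hχz z a hz (hθ1 a ha ha')

/-- **`k = 1`, the Steinberg character of `GU_3`** -/
theorem dg_pt_st (hF : Fintype.card F = q ^ 2) (hq : Nat.card F = q ^ 2) {p : ℕ} [Fact p.Prime] [CharP F p]
    (h : 3 ≤ q) :
    ∃ m, 0 < m ∧ DG F q (1 + (1 + (1 + (1 + 1)))) (dg (hermF F hq (1 + (1 + (1 + (1 + 1))))) 1 * p ^ m) := by
  classical
  obtain ⟨θ, hθ, hθ1⟩ := exists_theta_one (n := 1 + (1 + (1 + (1 + 1)))) hq (by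
    rcases Nat.lt_or_ge q 4 with h4 | h4
    · exact Or.inr ⟨by omega, by decide⟩
    · exact Or.inl h4)
  obtain ⟨W₀, hW₀, hc⟩ := hermF_cmp hq 1 (1 + (1 + 1))
  obtain ⟨m, hm0, hirr, hdeg, hsc⟩ := st_herm (p := p) hq (n := 1) (le_refl _)
  have hne : ∃ a, θ a ≠ 1 := by
    obtain ⟨z, hz⟩ := hθ
    exact ⟨_, hz⟩
  obtain ⟨χ, hχ, hχ1, hχz⟩ := exists_one_gen hc hW₀ hθ hirr (fun U hU _ => inner_st (opp_herm hq (by norm_num)) hne hU)
  refine ⟨m, hm0, to_psu hF hq (by norm_num) hχ ?_ fun z a ha ha' hz => hχz z a hz fun z' hz' => ?_⟩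
  · rw [hχ1, Cfsg.Agent.H113.Two.HcOne.dg_one, hdeg, Nat.cast_mul]
  · rw [hθ1 a ha ha', Units.val_one, one_mul, hsc z' a hz']

/-- **`k = 1`, a principal series character of `GU_3`** -/
theorem dg_pt_hc (hF : Fintype.card F = q ^ 2) (hq : Nat.card F = q ^ 2) {p : ℕ} [Fact p.Prime] [CharP F p]
    (h : 3 ≤ q) :
    ∃ m, 0 < m ∧ Nat.card (hermF F hq (1 + (1 + 1))).Pt = p ^ m + 1 ∧
      DG F q (1 + (1 + (1 + (1 + 1)))) (dg (hermF F hq (1 + (1 + (1 + (1 + 1))))) 1 * (p ^ m + 1)) := by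
  classical
  obtain ⟨φ, hφ⟩ := exists_faithful F
  obtain ⟨g, hg⟩ := exists_gen hq
  obtain ⟨W₀, hW₀, hc⟩ := hermF_cmp hq 1 (1 + (1 + 1))
  obtain ⟨W₁, hW₁, -⟩ := hermF_cmp hq 1 1
  obtain ⟨m, hm0, hm⟩ := card_pt (p := p) hq (n := 1) (le_refl _)
  have hfin := finite_iso (hermF F hq (1 + (1 + 1)))
  have hfinO := finite_Om (hermF F hq (1 + (1 + 1))) 1
  let _ := Fintype.ofFinite (hermF F hq (1 + (1 + 1))).iso
  let _ := Fintype.ofFinite ((hermF F hq (1 + (1 + 1))).Om 1)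
  have hqq : ∀ z : Fˣ, z ^ (q * q) = z := by
    intro z
    have h1 : z ^ (q * q - 1) = 1 := by
      have h2 : Nat.card Fˣ = q * q - 1 := by rw [Nat.card_units, hq, pow_two]
      rw [← h2]
      exact pow_card_eq_one'
    have h3 : q * q = (q * q - 1) + 1 := by
      have : 1 ≤ q * q := Nat.one_le_iff_ne_zero.2 (Nat.mul_ne_zero (by omega) (by omega))
      omega
    rw [h3, pow_succ, h1, one_mul]
  have hθ1 : ∃ z : Fˣ, φ (z * Units.map ((hermF F hq (1 + (1 + (1 + (1 + 1))))).σ : F →* F) z) ≠ 1 := by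
    refine ⟨g, fun h1 => ?_⟩
    have h1' : φ (g * Units.map (powHom hq : F →* F) g) = φ 1 := by rw [map_one]; exact h1
    rw [map_powHom] at h1'
    have h2 := hφ h1'
    rw [← pow_succ', hg] at h2
    have h3 := Nat.le_of_dvd (by omega) h2
    have h4 : 2 * (q + 1) ≤ (q - 1) * (q + 1) := Nat.mul_le_mul_right _ (by omega)
    omega
  have hθ2 : ∃ z : Fˣ, (φ ^ q) (z * Units.map ((hermF F hq (1 + (1 + 1))).σ : F →* F) z) ≠ 1 := by
    refine ⟨g, fun h1 => ?_⟩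
    have h1' : (φ ^ q) (g * Units.map (powHom hq : F →* F) g) = φ 1 := by rw [map_one]; exact h1
    rw [map_powHom, MonoidHom.pow_apply, ← map_pow] at h1'
    have h2 := hφ h1'
    rw [← pow_succ', ← pow_mul, hg, mul_comm (q + 1)] at h2
    have h3 := Nat.dvd_of_mul_dvd_mul_right (by omega) h2
    have h4 : q - 1 ∣ 1 := by
      have h5 : q = (q - 1) + 1 := by omega
      rw [h5] at h3
      have h6 : (q - 1) + 1 - 1 = q - 1 := by omega
      rw [h6] at h3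
      exact (Nat.dvd_add_right (dvd_refl _)).1 h3
    have := Nat.le_of_dvd (by norm_num) h4
    omega
  have hcus := cusOne F (hermF F hq (1 + (1 + 1))).σ hθ2
  have hirr := (hermF F hq (1 + (1 + 1))).isIrr_hc_one hcus.irr hcus.cusp hcus.dual hW₁
  have hcl := Core.isIrr_isClassFunction hcus.irr
  have hdeg1 : (hermF F hq (1 + (1 + 1))).hc (linDet (φ ^ q) 1) (fun _ _ => 1) 1 = ((p ^ m + 1 : ℕ) : ℂ) := by
    rw [CForm.hc_one _ hcl (fun _ _ => 1) (d := 1) (fun _ _ => rfl), mul_one]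
    have e1 : linDet (φ ^ q) 1 (1 : GL (Fin 1) F) = 1 := by
      unfold linDet
      rw [map_one, map_one]
      rfl
    rw [e1, mul_one, ← hm]
    rfl
  have hsc : ∀ (z' : (hermF F hq (1 + (1 + 1))).iso) (a : Fˣ),
      (∀ v, (z' : (Fin (1 + (1 + 1)) → F) ≃ₗ[F] (Fin (1 + (1 + 1)) → F)) v = (a : F) • v) →
      (hermF F hq (1 + (1 + 1))).hc (linDet (φ ^ q) 1) (fun _ _ => 1) z' =
        (((φ ^ q) a : ℂˣ) : ℂ) * (hermF F hq (1 + (1 + 1))).hc (linDet (φ ^ q) 1) (fun _ _ => 1) 1 := by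
    intro z' a hz'
    unfold CForm.hc
    rw [Finset.mul_sum]
    refine Finset.sum_congr rfl fun W _ => ?_
    have h1 := flagTerm_mul (θ := φ ^ q) W.2.2 (t := z') (a := a) (fun w _ => hz' w) 1
    rw [mul_one] at h1
    rw [h1, mul_assoc]
  obtain ⟨χ, hχ, hχ1, hχz⟩ := exists_one_gen hc hW₀ hθ1 hirr (fun U hU _ => by
    refine inner_hc (opp_herm hq (by norm_num)) ⟨g, fun h1 => ?_⟩ ⟨g, fun h1 => ?_⟩ hU
    · rw [MonoidHom.pow_apply, ← map_pow] at h1
      have h2 := hφ h1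
      have h3 : g ^ (q - 1) = 1 := by
        have h4 : g ^ q = g ^ (q - 1) * g := by rw [← pow_succ]; congr 1; omega
        rw [h4] at h2
        exact mul_eq_right.1 h2
      rw [hg] at h3
      have h5 := Nat.le_of_dvd (by omega) h3
      have h4 : (q - 1) * 4 ≤ (q - 1) * (q + 1) := Nat.mul_le_mul_left _ (by omega)
      omega
    · have h1' : (φ ^ q) (Units.map (powHom hq : F →* F) g)⁻¹ = φ g := h1
      rw [map_powHom, MonoidHom.pow_apply, ← map_pow] at h1'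
      have h2 := hφ h1'
      rw [inv_pow, ← pow_mul, hqq] at h2
      have h3 : g ^ 2 = 1 := by
        rw [pow_two]
        nth_rewrite 1 [← h2]
        rw [inv_mul_cancel]
      rw [hg] at h3
      have h5 := Nat.le_of_dvd (by norm_num) h3
      have h4 : 2 * 4 ≤ (q - 1) * (q + 1) := Nat.mul_le_mul (by omega) (by omega)
      omega)
  refine ⟨m, hm0, hm, to_psu hF hq (by norm_num) hχ ?_ fun z a ha ha' hz => hχz z a hz fun z' hz' => ?_⟩
  · rw [hχ1, Cfsg.Agent.H113.Two.HcOne.dg_one, hdeg1, Nat.cast_mul]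
  · rw [hsc z' a hz', ← mul_assoc, MonoidHom.pow_apply, ← map_pow, ← Units.val_mul, ← map_mul, ← pow_succ', ha,
      map_one, Units.val_one, one_mul]

end Cfsg.Agent.H7.Eight.UnDegs
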