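import Cfsg.Agent.H749.TwoCmp
import Cfsg.Agent.H113.Two.HcOne
import Cfsg.Agent.H113.PSU.Levi

/-!
# Frames of the standard Hermitian form (helper7)

`hermF_fr` : a hyperbolic frame; `hermF_cmp` : the instance of `Cmp`; `ts_le` : totally isotropic subspaces have dimension
at most `n / 2`; `dg_eq` : the exact `p'`-part of `dg (hermF n) k`.
-/

set_option autoImplicit false
set_option linter.unusedSectionVars false

open scoped ComplexConjugate
open Cfsg

namespace Cfsg.Agent.H7.Eight.UnFrame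

open Cfsg.Agent.Characters Module Cfsg.Agent.H53.HC Cfsg.Agent.H477.HC Cfsg.Agent.H477.HC.CForm Cfsg.Agent.H749.Two
open Cfsg.Agent.H113.PSU.Levi (uu card_iso)

universe u

variable {K : Type u} [Field K] [Fintype K] {q : ℕ}

/-- a hyperbolic frame of the standard Hermitian form -/
theorem hermF_fr (hq : Nat.card K = q ^ 2) (k n : ℕ) : ∃ e f : Fin k → (Fin (k + (k + n)) → K),
    (∀ i l, (hermF K hq (k + (k + n))).B (e i) (e l) = 0) ∧
    (∀ i l, (hermF K hq (k + (k + n))).B (f i) (f l) = 0) ∧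
    (∀ i l, (hermF K hq (k + (k + n))).B (e i) (f l) = if i = l then 1 else 0) ∧
    (∀ x i, (hermF K hq (k + (k + n))).B (jherm K k n x) (e i) = 0) ∧
    (∀ x i, (hermF K hq (k + (k + n))).B (jherm K k n x) (f i) = 0) := by
  classical
  have hq0 : q ≠ 0 := by have := two_le_of_card hq; omega
  obtain ⟨x, y, hx, hy, hxy⟩ := exists_norm_neg_one hq
  let b : K := powHom hq (1 + x * y ^ q)⁻¹
  have hb : b ^ q = (1 + x * y ^ q)⁻¹ := by
    rw [← powHom_apply hq, powHom_powHom]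
  refine ⟨hv K k n 1 x, hv K k n b (b * y), ?_, ?_, ?_, ?_, ?_⟩
  · intro i l
    rw [hermF_B, herm_hv hq0]
    split_ifs
    · rw [one_pow, one_mul, ← pow_succ', hx]
    · rfl
  · intro i l
    rw [hermF_B, herm_hv hq0]
    split_ifs
    · have : b * b ^ q + b * y * (b * y) ^ q = b * b ^ q * (1 + y ^ (q + 1)) := by ring
      rw [this, hy, mul_zero]
    · rfl
  · intro i l
    rw [hermF_B, herm_hv hq0]
    split_ifs
    · have : 1 * b ^ q + x * (b * y) ^ q = b ^ q * (1 + x * y ^ q) := by ring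
      rw [this, hb, inv_mul_cancel₀ hxy]
    · rfl
  · intro x i
    simp [hermForm, Fin.sum_univ_add, hv, hq0]
  · intro x i
    simp [hermForm, Fin.sum_univ_add, hv, hq0]

/-- the complement -/
theorem hermF_cmp (hq : Nat.card K = q ^ 2) (k n : ℕ) : ∃ W₀, W₀ ∈ (hermF K hq (k + (k + n))).Om k ∧
    Cmp (hermF K hq (k + (k + n))) (hermF K hq n) (jherm K k n) W₀ := by
  classical
  obtain ⟨e, f, hee, hff, hef, hje, hjf⟩ := hermF_fr hq k n
  refine ⟨_, cmp_of_frame (F := hermF K hq (k + (k + n))) (F' := hermF K hq n) (j := jherm K k n) rfl hee hff hef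
    (fun i => hee i i) ?_ ?_ hje hjf ?_⟩
  · intro x y
    simp [hermForm, Fin.sum_univ_add]
  · intro x
    simp [hermForm, Fin.sum_univ_add]
  · simp
    ring

/-- the dimension of a totally isotropic subspace -/
theorem ts_le (hq : Nat.card K = q ^ 2) (n : ℕ) {W : Submodule K (Fin n → K)} (hW : (hermF K hq n).TS W) :
    finrank K W ≤ n / 2 := by
  have h := two_finrank_le hW
  rw [finrank_fin_fun] at h
  omega

/-- no orthogonal disjoint pair -/
theorem no_disj' (hq : Nat.card K = q ^ 2) {n k : ℕ} (hk : n < 4 * k) {W : Submodule K (Fin n → K)}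
    (hW : W ∈ (hermF K hq n).Om k) :
    ∀ W' ∈ (hermF K hq n).Om k, W ≤ (hermF K hq n).perp W' → W ⊓ W' = ⊥ → False :=
  no_disj (m := n / 2) (fun _ h => ts_le hq n h) (by omega) hW

/-- the exact `p'`-part of `dg` -/
theorem dg_eq (hq : Nat.card K = q ^ 2) {p : ℕ} [Fact p.Prime] [CharP K p] {k : ℕ} (hk : 0 < k) (n : ℕ) :
    ∃ a b : ℕ, p ^ a * (dg (hermF K hq (k + (k + n))) k * (q ^ (2 * k) - 1)) =
      p ^ b * ∏ i ∈ Finset.Ico n (k + (k + n)), uu q (i + 1) := by
  classical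
  obtain ⟨W₀, hW₀, h⟩ := hermF_cmp hq k n
  obtain ⟨a, ha⟩ := card_exact (p := p) h hW₀
  obtain ⟨s, hs⟩ := card_GL_eq K k hk
  obtain ⟨m, hm⟩ : ∃ m, q = p ^ m := by
    obtain ⟨r, -, hr⟩ := FiniteField.card K p
    rw [← Nat.card_eq_fintype_card, hq] at hr
    obtain ⟨m, -, hm⟩ := (Nat.dvd_prime_pow (Fact.out : p.Prime)).1 ((dvd_pow_self q two_ne_zero).trans (dvd_of_eq hr))
    exact ⟨m, hm⟩
  rw [card_iso, card_iso, ← Finset.prod_range_mul_prod_Ico _ (by omega : n ≤ k + (k + n)), hs, hq] at ha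
  have hpos : 0 < ∏ i ∈ Finset.range n, uu q (i + 1) :=
    Finset.prod_pos fun i _ => Cfsg.Agent.H113.PSU.Levi.uu_pos (two_le_of_card hq) (by omega)
  refine ⟨a + m * (2 * s) + m * (n * (n - 1) / 2), m * ((k + (k + n)) * (k + (k + n) - 1) / 2), ?_⟩
  apply Nat.eq_of_mul_eq_mul_right hpos
  unfold dg
  have e1 : p ^ (a + m * (2 * s) + m * (n * (n - 1) / 2)) = p ^ a * (q ^ 2) ^ s * q ^ (n * (n - 1) / 2) := by
    rw [pow_add, pow_add, pow_mul p m (2 * s), pow_mul p m, ← hm, pow_mul q 2 s]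
  have e2 : p ^ (m * ((k + (k + n)) * (k + (k + n) - 1) / 2)) = q ^ ((k + (k + n)) * (k + (k + n) - 1) / 2) := by
    rw [pow_mul, ← hm]
  rw [hq, e1, e2, pow_mul q 2 k]
  have ha' := ha.symm
  refine Eq.trans ?_ (ha'.trans ?_)
  · ring
  · ring

end Cfsg.Agent.H7.Eight.UnFrame
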