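import Cfsg.Agent.H7.Eight.UnNum

/-!
# Primes for the top level of `PSU_6(q)`, `PSU_8(q)` (helper7)

A prime `z ≠ 3` dividing `q² + q + 1` divides no `uu q i`, `i ≤ 5`, and a prime `z ≠ 2` dividing `q⁴ + 1` divides no
`uu q i`, `i ≤ 7`.
-/

set_option autoImplicit false
set_option linter.unusedSectionVars false

namespace Cfsg.Agent.H7.Eight.UnNum

open Cfsg.Agent.H113.PSU.Levi Cfsg.Agent.H113.PSU.Facts

variable {q z : ℕ}

theorem uu_zmod (hq : 1 ≤ q) (i : ℕ) : ((uu q i : ℕ) : ZMod z) = (q : ZMod z) ^ i - (-1) ^ i := by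
  have := congrArg (Int.cast : ℤ → ZMod z) (uu_cast hq i)
  push_cast at this
  exact this

theorem dvd_uu_iff (hq : 1 ≤ q) {i : ℕ} : z ∣ uu q i ↔ (q : ZMod z) ^ i = (-1) ^ i := by
  rw [← ZMod.natCast_eq_zero_iff, uu_zmod hq, sub_eq_zero]

theorem exists_six (hq : 2 ≤ q) : ∃ z, z.Prime ∧ z ∣ uu q 6 ∧ ∀ i, 1 ≤ i → i ≤ 5 → ¬ z ∣ uu q i := by
  obtain ⟨z, hz, hzd, hz3⟩ := exists_prime_ne (N := q ^ 2 + q + 1) Nat.prime_three (by
    intro h
    have h1 : (q ^ 2 + q + 1) % 9 = 0 := Nat.mod_eq_zero_of_dvd h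
    have h2 : q % 9 < 9 := Nat.mod_lt _ (by norm_num)
    have h3 : (q ^ 2 + q + 1) % 9 = ((q % 9) ^ 2 + q % 9 + 1) % 9 := by
      simp [Nat.add_mod, Nat.pow_mod]
    rw [h3] at h1
    interval_cases (q % 9) <;> omega) (by nlinarith)
  have : Fact z.Prime := ⟨hz⟩
  have hz2 : z ≠ 2 := by
    rintro rfl
    have h1 : q ^ 2 + q + 1 = q * (q + 1) + 1 := by ring
    rw [h1] at hzd
    have h2 : 2 ∣ q * (q + 1) := even_iff_two_dvd.1 (Nat.even_mul_succ_self q)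
    have h3 := (Nat.dvd_add_right h2).1 hzd
    omega
  obtain ⟨Q, hQ⟩ : ∃ Q : ZMod z, Q = q := ⟨_, rfl⟩
  have h1 : Q ^ 2 + Q + 1 = 0 := by
    rw [hQ]
    have := (ZMod.natCast_eq_zero_iff _ z).2 hzd
    push_cast at this
    exact this
  have h2 : Q ^ 3 = 1 := by linear_combination (Q - 1) * h1
  have h20 : (2 : ZMod z) ≠ 0 := by
    intro h
    have h3 : ((2 : ℕ) : ZMod z) = 0 := by push_cast; exact h
    have h4 := (ZMod.natCast_eq_zero_iff 2 z).1 h3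
    exact hz2 ((Nat.prime_dvd_prime_iff_eq hz Nat.prime_two).1 h4)
  have h30 : (3 : ZMod z) ≠ 0 := by
    intro h
    have h3 : ((3 : ℕ) : ZMod z) = 0 := by push_cast; exact h
    have h4 := (ZMod.natCast_eq_zero_iff 3 z).1 h3
    exact hz3 ((Nat.prime_dvd_prime_iff_eq hz Nat.prime_three).1 h4)
  refine ⟨z, hz, ?_, fun i hi1 hi2 h => ?_⟩
  · rw [dvd_uu_iff (by omega), ← hQ]
    linear_combination (Q ^ 3 + 1) * h2
  · rw [dvd_uu_iff (by omega), ← hQ] at h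
    interval_cases i
    · have h3 : (1 : ZMod z) = 0 := by linear_combination h1 - Q * h
      exact one_ne_zero h3
    · have h3 : Q = 1 := by linear_combination h2 - Q * h
      rw [h3] at h1
      exact h30 (by linear_combination h1)
    · exact h20 (by linear_combination h - h2)
    · have h3 : Q = 1 := by linear_combination h - Q * h2
      rw [h3] at h1
      exact h30 (by linear_combination h1)
    · have h3 : Q = 0 := by linear_combination h1 - h + Q ^ 2 * h2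
      rw [h3] at h2
      exact one_ne_zero (by linear_combination -h2 : (1 : ZMod z) = 0)

theorem exists_eight (hq : 2 ≤ q) : ∃ z, z.Prime ∧ z ∣ uu q 8 ∧ ∀ i, 1 ≤ i → i ≤ 7 → ¬ z ∣ uu q i := by
  obtain ⟨z, hz, hzd, hz2⟩ := exists_prime_ne (N := q ^ 4 + 1) Nat.prime_two (by
    intro h
    have h1 : (q ^ 4 + 1) % 4 = 0 := Nat.mod_eq_zero_of_dvd h
    have h2 : q % 4 < 4 := Nat.mod_lt _ (by norm_num)
    have h3 : (q ^ 4 + 1) % 4 = ((q % 4) ^ 4 + 1) % 4 := by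
      simp [Nat.add_mod, Nat.pow_mod]
    rw [h3] at h1
    interval_cases (q % 4) <;> omega) (by
      have : 2 ^ 4 ≤ q ^ 4 := Nat.pow_le_pow_left hq 4
      omega)
  have : Fact z.Prime := ⟨hz⟩
  obtain ⟨Q, hQ⟩ : ∃ Q : ZMod z, Q = q := ⟨_, rfl⟩
  have h1 : Q ^ 4 = -1 := by
    rw [hQ]
    have := (ZMod.natCast_eq_zero_iff _ z).2 hzd
    push_cast at this
    linear_combination this
  have h20 : (2 : ZMod z) ≠ 0 := by
    intro h
    have h3 : ((2 : ℕ) : ZMod z) = 0 := by push_cast; exact h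
    have h4 := (ZMod.natCast_eq_zero_iff 2 z).1 h3
    exact hz2 ((Nat.prime_dvd_prime_iff_eq hz Nat.prime_two).1 h4)
  have h8 : Q ^ 8 = 1 := by linear_combination (Q ^ 4 - 1) * h1
  have hord : orderOf Q = 2 ^ 3 := by
    refine orderOf_eq_prime_pow (p := 2) (n := 2) ?_ h8
    intro h
    have h3 : Q ^ 4 = 1 := h
    exact h20 (by linear_combination h1 - h3)
  refine ⟨z, hz, ?_, fun i hi1 hi2 h => ?_⟩
  · rw [dvd_uu_iff (by omega), ← hQ, h8]
    norm_num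
  · rw [dvd_uu_iff (by omega), ← hQ] at h
    have h2 : Q ^ (2 * i) = 1 := by
      rw [mul_comm, pow_mul, h, ← pow_mul, mul_comm, pow_mul, neg_one_sq, one_pow]
    have h3 := orderOf_dvd_of_pow_eq_one h2
    rw [hord] at h3
    have h4 : i = 4 := by omega
    subst h4
    exact h20 (by linear_combination h1 - h)

theorem Lv.dvd {p k n w e : ℕ} (h : Lv p q k n w e) (hz : z.Prime) (h1 : ¬ z ∣ uu q 1) (h2 : ¬ z ∣ uu q (k + k))
    (h3 : z ∣ uu q (k + (k + n))) (hk : 0 < k) : z ∣ X p e := by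
  obtain ⟨t, ht, h⟩ := h
  have h4 : z ∣ X p e * t * (q ^ (2 * k) - 1) := by
    rw [h]
    refine Dvd.dvd.mul_right (h3.trans ?_) _
    obtain ⟨m, hm⟩ : ∃ m, k + (k + n) = m + 1 := ⟨k + (k + n) - 1, by omega⟩
    rw [hm, PP_top (by omega)]
    exact dvd_mul_left _ _
  rcases (hz.dvd_mul).1 h4 with h5 | h5
  · rcases (hz.dvd_mul).1 h5 with h6 | h6
    · exact h6
    · exact absurd (by rw [uu_one]; exact h6.trans ht) h1
  · exact absurd (by rw [uu_even ⟨k, rfl⟩, ← two_mul]; exact h5) h2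

theorem Fg.dvd {p a b e : ℕ} (h : Fg p q a b e) (hz : z.Prime) (h1 : ¬ z ∣ uu q 1) (h2 : ¬ z ∣ uu q 2)
    (h3 : z ∣ uu q a) : z ∣ X p e := by
  have h4 : z ∣ X p e * 1 * ((q ^ 2 - 1) * (q + 1)) := by
    rw [h]
    exact Dvd.dvd.mul_right h3 _
  rcases (hz.dvd_mul).1 h4 with h5 | h5
  · rwa [mul_one] at h5
  · rcases (hz.dvd_mul).1 h5 with h6 | h6
    · exact absurd (by rw [uu_two]; exact h6) h2
    · exact absurd (by rw [uu_one]; exact h6) h1

theorem Lv.not_dvd (hq : 2 ≤ q) {p k m e : ℕ} (hm : k + (k + 0) = m + 1) (h : Lv p q k 0 1 e) (hz : z.Prime)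
    (h1 : ∀ i, 1 ≤ i → i ≤ m → ¬ z ∣ uu q i) : ¬ z ∣ X p e := by
  obtain ⟨t, -, h⟩ := h.spec hq hm
  intro h2
  refine not_dvd_PP hz 0 m (fun i h3 h4 => h1 i (by omega) h4) ?_
  rw [← h, mul_one]
  exact Dvd.dvd.mul_right h2 _

end Cfsg.Agent.H7.Eight.UnNum
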