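import Cfsg.Agent.H7.Eight.UnSix
import Cfsg.Agent.H7.Eight.UnPrime
import Cfsg.Agent.H664.Eight.Base
import Cfsg.Agent.H670.PSing
import Cfsg.Agent.H167.HasSt
import Cfsg.Agent.Nodes.WittInst

/-!
# S4899: `PSU_n(q)`, `n ≥ 5`, has at least eight character degrees (helper7)

`eight_un` : `n ≥ 8` or `q ≥ 3`.
-/

set_option autoImplicit false
set_option linter.unusedSectionVars false

open scoped ComplexConjugate
open Cfsg

namespace Cfsg.Agent.H7.Eight.UnMain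

open Cfsg.Agent.Characters Module Cfsg.Agent.H53.HC Cfsg.Agent.H477.HC Cfsg.Agent.H477.HC.CForm Cfsg.Agent.H749.Two
open Cfsg.Agent.H7.Eight.UnFrame Cfsg.Agent.H7.Eight.UnSum Cfsg.Agent.H7.Eight.UnSt Cfsg.Agent.H7.Eight.UnDown
open Cfsg.Agent.H7.Eight.UnVan Cfsg.Agent.H7.Eight.UnDegs Cfsg.Agent.H7.Eight.UnSix Cfsg.Agent.H7.Eight.UnNum
open Cfsg.Agent.H113.PSU.Levi Cfsg.Agent.H113.PSU.Facts Cfsg.Agent.H113.PSU.Descent
open Cfsg.Agent.H664.Eight

universe u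

/-- the eight degrees -/
theorem core {S : Type u} [Group S] [Finite S] {p st f g a b c d : ℕ} (hp : p.Prime) (mst : st ∈ charDegrees S)
    (mf : f ∈ charDegrees S) (mg : g ∈ charDegrees S) (ma : a ∈ charDegrees S) (mb : b ∈ charDegrees S)
    (mc : c ∈ charDegrees S) (md : d ∈ charDegrees S) (hst : X p st = 1) (hst1 : st ≠ 1) (hf : 1 < X p f)
    (hg : 1 < X p g) (hfg : f ≠ g) (ha : X p f < X p a ∧ X p g < X p a) (hb : X p f < X p b ∧ X p g < X p b)
    (hc : X p f < X p c ∧ X p g < X p c) (hd : X p f < X p d ∧ X p g < X p d)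
    (hab : a ≠ b) (hac : a ≠ c) (had : a ≠ d) (hbc : b ≠ c) (hbd : b ≠ d) (hcd : c ≠ d) : Eight S := by
  have h1 := X_one hp
  have key : ∀ {x y : ℕ}, X p x < X p y → x ≠ y := by
    rintro x y h rfl
    exact lt_irrefl _ h
  refine eight_of_list [1, st, f, g, a, b, c, d] ?_ (by simp) ?_
  · have e1 : ∀ {y : ℕ}, 1 < X p y → 1 ≠ y := fun h => key (by rw [h1]; exact h)
    have e2 : ∀ {y : ℕ}, 1 < X p y → st ≠ y := fun h => key (by rw [hst]; exact h)
    simp only [List.nodup_cons, List.mem_cons, List.not_mem_nil, or_false, not_or, not_false_eq_true, and_true,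
      List.nodup_nil]
    exact ⟨⟨hst1.symm, e1 hf, e1 hg, e1 (hf.trans ha.1), e1 (hf.trans hb.1), e1 (hf.trans hc.1), e1 (hf.trans hd.1)⟩,
      ⟨e2 hf, e2 hg, e2 (hf.trans ha.1), e2 (hf.trans hb.1), e2 (hf.trans hc.1), e2 (hf.trans hd.1)⟩,
      ⟨hfg, key ha.1, key hb.1, key hc.1, key hd.1⟩, ⟨key ha.2, key hb.2, key hc.2, key hd.2⟩,
      ⟨hab, hac, had⟩, ⟨hbc, hbd⟩, hcd⟩
  · intro x hx
    simp only [List.mem_cons, List.not_mem_nil, or_false] at hx
    rcases hx with rfl | rfl | rfl | rfl | rfl | rfl | rfl | rfl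
    · exact one_mem
    all_goals assumption

variable {F : Type u} [Field F] [Fintype F] {q p : ℕ}

theorem XD (hq : Nat.card F = q ^ 2) [hp : Fact p.Prime] [CharP F p] (hpq : p ∣ q) {k : ℕ} (hk : 0 < k) (n : ℕ) :
    X p (dg (hermF F hq (k + (k + n))) k) * (q ^ (2 * k) - 1) = PP q n (k + (k + n)) := by
  obtain ⟨a, b, h⟩ := dg_eq (p := p) hq hk n
  have hq2 := two_le_of_card hq
  have h1 := congrArg (X p) h
  rw [X_mul, X_mul, X_mul, X_pow hp.out, X_pow hp.out, one_mul, one_mul,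
    X_self (not_dvd_sub hp.out hpq hq2 (by omega))] at h1
  rw [h1]
  exact X_self (not_dvd_PP hp.out _ _ fun i hi _ => not_dvd_uu hp.out hpq hq2 (by omega))

theorem D_ne (hq : Nat.card F = q ^ 2) (p : ℕ) [hp : Fact p.Prime] [CharP F p] {k : ℕ} (hk : 0 < k) (n : ℕ) :
    dg (hermF F hq (k + (k + n))) k ≠ 0 := by
  intro h0
  obtain ⟨a, b, h⟩ := dg_eq (p := p) hq hk n
  have h1 : 0 < p ^ b * ∏ i ∈ Finset.Ico n (k + (k + n)), uu q (i + 1) :=
    Nat.mul_pos (pow_pos hp.out.pos _) (PP_pos (two_le_of_card hq) n _)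
  rw [← h, h0, zero_mul, mul_zero] at h1
  exact lt_irrefl _ h1

theorem lv_of (hq : Nat.card F = q ^ 2) [hp : Fact p.Prime] [CharP F p] (hpq : p ∣ q) {k : ℕ} (hk : 0 < k) (n : ℕ)
    {e t w : ℕ} (h : e * t = dg (hermF F hq (k + (k + n))) k * w) (ht : t ∣ q + 1) : Lv p q k n (X p w) e := by
  refine ⟨t, ht, ?_⟩
  have h1 := congrArg (X p) h
  rw [X_mul, X_mul, X_self (not_dvd_t hp.out hpq ht)] at h1
  rw [h1, ← XD hq hpq hk n]
  ring

/-- `e` and `e p^m` -/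
theorem ne_pow (hp : p.Prime) (hpq : p ∣ q) {D e t e' t' m : ℕ} (hD : D ≠ 0) (hm : 0 < m) (h : e * t = D)
    (h' : e' * t' = D * p ^ m) (ht' : t' ∣ q + 1) : e ≠ e' := by
  rintro rfl
  have h1 : e * t' = e * (t * p ^ m) := by rw [h', ← h, mul_assoc]
  have h2 : e ≠ 0 := by
    rintro rfl
    rw [zero_mul] at h
    exact hD h.symm
  have h3 := Nat.eq_of_mul_eq_mul_left (Nat.pos_of_ne_zero h2) h1
  refine not_dvd_t hp hpq ht' ?_
  rw [h3]
  exact Dvd.dvd.mul_left (dvd_pow_self p hm.ne') _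

/-- the Steinberg degree -/
theorem exists_st (hF : Fintype.card F = q ^ 2) [hp : Fact p.Prime] [CharP F p] (hpq : p ∣ q) {n : ℕ} (hn : 5 ≤ n) :
    ∃ st, st ∈ charDegrees (PSU n F q) ∧ X p st = 1 ∧ st ≠ 1 := by
  obtain ⟨χ, hχ, h1, -⟩ := H167.StChar.HasSt.of_hasRGD (Nodes.WittInst.hasRGD_PSU hF (p := p) (N := n) (by omega))
  refine ⟨_, ⟨⟨χ, hχ⟩, H670.PSing.charDegree_eq_of h1⟩, X_pow hp.out _, ?_⟩
  have h2 := Cfsg.Agent.S0280.result hF n (by omega)
  have h3 : p ∣ Nat.card (PSU n F q) := by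
    have h4 : p ∣ Nat.gcd n (q + 1) * ((q + 1) * Nat.card (PSU n F q)) := by
      rw [h2]
      refine Dvd.dvd.mul_right (hpq.trans (dvd_pow_self q ?_)) _
      have : 2 ≤ n * (n - 1) := by
        calc 2 ≤ 5 * 1 := by norm_num
          _ ≤ n * (n - 1) := Nat.mul_le_mul hn (by omega)
      omega
    rcases (hp.out.dvd_mul).1 h4 with h5 | h5
    · exact absurd h5 (not_dvd_t hp.out hpq (Nat.gcd_dvd_right _ _))
    · rcases (hp.out.dvd_mul).1 h5 with h6 | h6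
      · exact absurd h6 (not_dvd_t hp.out hpq (dvd_refl _))
      · exact h6
  have h5 : Nat.card (PSU n F q) ≠ 0 := Nat.card_pos.ne'
  have h6 := (hp.out.dvd_iff_one_le_factorization h5).1 h3
  intro h7
  have h8 : 1 < p ^ (Nat.card (PSU n F q)).factorization p := Nat.one_lt_pow (by omega) hp.out.one_lt
  omega

/-- the two rank 3 degrees -/
theorem exists_fg (hF : Fintype.card F = q ^ 2) [hp : Fact p.Prime] {r : ℕ} (hr : q = p ^ r) (hpq : p ∣ q) (n : ℕ) :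
    ∃ f g, f ∈ charDegrees (PSU (n + 4) F q) ∧ g ∈ charDegrees (PSU (n + 4) F q) ∧ Fg p q (n + 4) (n + 1) f ∧
      Fg p q (n + 3) (n + 2) g ∧ f ≠ g := by
  obtain ⟨φ, hφ⟩ := exF (F := F) hF (n := n + 4) (by omega)
  obtain ⟨ψ, hψ⟩ := exG (F := F) hF (n := n + 4) (by omega)
  have hq2 := LieClassical.HermBasic.two_le hF
  have e1 : n + 4 - 3 = n + 1 := by omega
  have e2 : n + 4 - 1 = n + 3 := by omega
  have e3 : n + 4 - 2 = n + 2 := by omega
  rw [e1] at hφ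
  rw [e2, e3] at hψ
  obtain ⟨f, hf⟩ : ∃ f, charDegree (φ : PSU (n + 4) F q → ℂ) = f := ⟨_, rfl⟩
  obtain ⟨g, hg⟩ : ∃ g, charDegree (ψ : PSU (n + 4) F q → ℂ) = g := ⟨_, rfl⟩
  have hu : ∀ i, 1 ≤ i → ¬ p ∣ uu q i := fun i hi => not_dvd_uu hp.out hpq hq2 hi
  have h2 : ¬ p ∣ q ^ 2 - 1 := not_dvd_sub hp.out hpq hq2 (by norm_num)
  have h3 : ¬ p ∣ q + 1 := not_dvd_t hp.out hpq (dvd_refl _)
  have hXq : ∀ j, X p (q ^ j) = 1 := fun j => by rw [hr, ← pow_mul, X_pow hp.out]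
  rw [hf] at hφ
  rw [hg] at hψ
  refine ⟨f, g, ⟨φ, hf⟩, ⟨ψ, hg⟩, ?_, ?_, ?_⟩
  · have h4 := congrArg (X p) hφ
    rw [X_mul, X_mul, X_mul, X_mul, X_self h2, X_self h3, hXq, X_self (hu _ (by omega)), X_self (hu _ (by omega)),
      one_mul] at h4
    unfold Fg
    rw [← h4]
    ring
  · have h4 := congrArg (X p) hψ
    rw [X_mul, X_mul, X_mul, X_mul, X_self h2, X_self h3, hXq, X_self (hu _ (by omega)), X_self (hu _ (by omega)),
      one_mul] at h4
    unfold Fg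
    rw [← h4]
    ring
  · rintro rfl
    rw [hφ] at hψ
    have h4 : q ^ 2 * (uu q (n + 4) * uu q (n + 1)) = q ^ 2 * (q * (uu q (n + 3) * uu q (n + 2))) := by
      rw [← mul_assoc, hψ]; ring
    have h5 := Nat.eq_of_mul_eq_mul_left (by positivity) h4
    have h6 : p ∣ uu q (n + 4) * uu q (n + 1) := by
      rw [h5]
      exact Dvd.dvd.mul_right hpq _
    rcases (hp.out.dvd_mul).1 h6 with h7 | h7
    · exact hu _ (by omega) h7
    · exact hu _ (by omega) h7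

/-- the number of isotropic points of the 3-dimensional space -/
theorem card_pt_three (hq : Nat.card F = q ^ 2) [hp : Fact p.Prime] [CharP F p] (hpq : p ∣ q) {m : ℕ} (hm0 : 0 < m)
    (hm : Nat.card (hermF F hq (1 + (1 + 1))).Pt = p ^ m + 1) : p ^ m + 1 = q ^ 3 + 1 := by
  have hq2 := two_le_of_card hq
  have h1 := XD hq hpq (k := 1) one_pos 1
  have h2 : dg (hermF F hq (1 + (1 + 1))) 1 = p ^ m + 1 := by
    rw [Cfsg.Agent.H113.Two.HcOne.dg_one, ← hm]
    rfl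
  have h3 : ¬ p ∣ p ^ m + 1 := by
    intro h
    have h4 := (Nat.dvd_add_right (dvd_pow_self p hm0.ne')).1 h
    exact hp.out.one_lt.ne' (Nat.dvd_one.1 h4)
  rw [h2, X_self h3, PP_bot (by norm_num), PP_bot (by norm_num), PP_self, mul_one] at h1
  have h4 : uu q (1 + 1) = q ^ 2 - 1 := uu_two
  have h5 : uu q (1 + 1 + 1) = q ^ 3 + 1 := uu_three
  rw [h4, h5, mul_one, mul_comm (q ^ 2 - 1)] at h1
  exact Nat.eq_of_mul_eq_mul_right (by rw [← uu_two]; exact uu_pos hq2 (by norm_num)) h1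

section lvl

variable (hF : Fintype.card F = q ^ 2) (hq : Nat.card F = q ^ 2)

include hF hq

theorem dvd_of_MM {N t : ℕ} (hN : 1 ≤ N) (ht : t ∣ (MM N F q).index) : t ∣ q + 1 := ht.trans (index_MM hF hN)

/-- level `k ≥ 2` -/
theorem lvl_one [hp : Fact p.Prime] [CharP F p] (hpq : p ∣ q) {N k n : ℕ} (hk : 2 ≤ k) (h : k + (k + n) = N) :
    ∃ e, e ∈ charDegrees (PSU N F q) ∧ Lv p q k n 1 e := by
  subst h
  obtain ⟨e, t, he, h1, ht⟩ := dg_one hF hq hk n
  refine ⟨e, he, ?_⟩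
  have h2 := lv_of hq hpq (k := k) (by omega) n (e := e) (t := t) (w := 1) (by rw [h1, mul_one])
    (dvd_of_MM hF hq (by omega) ht)
  rwa [X_one hp.out] at h2

/-- two degrees of level `k ≥ 2` -/
theorem lvl_two [hp : Fact p.Prime] [CharP F p] (hpq : p ∣ q) {N k n : ℕ} (hk : 2 ≤ k) (hn : n ≤ 1)
    (h : k + (k + (1 + (1 + n))) = N) :
    ∃ e e', e ∈ charDegrees (PSU N F q) ∧ e' ∈ charDegrees (PSU N F q) ∧ Lv p q k (1 + (1 + n)) 1 e ∧
      Lv p q k (1 + (1 + n)) 1 e' ∧ e ≠ e' := by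
  subst h
  obtain ⟨e, t, he, h1, ht⟩ := dg_one hF hq hk (1 + (1 + n))
  obtain ⟨m, hm0, e', t', he', h1', ht'⟩ := dg_st (p := p) hF hq hk hn
  have ht := dvd_of_MM hF hq (by omega) ht
  have ht' := dvd_of_MM hF hq (by omega) ht'
  refine ⟨e, e', he, he', ?_, ?_, ne_pow hp.out hpq (D_ne hq p (by omega) _) hm0 h1 h1' ht'⟩
  · have h2 := lv_of hq hpq (k := k) (by omega) _ (e := e) (t := t) (w := 1) (by rw [h1, mul_one]) ht
    rwa [X_one hp.out] at h2
  · have h2 := lv_of hq hpq (k := k) (by omega) _ (e := e') (t := t') (w := p ^ m) h1' ht'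
    rwa [X_pow hp.out] at h2

/-- level 1 -/
theorem lvl_pt [hp : Fact p.Prime] [CharP F p] (hpq : p ∣ q) {N n : ℕ} (hn : 1 ≤ n) (h : 1 + (1 + n) = N)
    (h3 : 4 ≤ q ∨ (q = 3 ∧ Odd (1 + (1 + n)))) :
    ∃ e, e ∈ charDegrees (PSU N F q) ∧ Lv p q 1 n 1 e := by
  subst h
  obtain ⟨e, t, he, h1, ht⟩ := dg_pt hF hq hn h3
  refine ⟨e, he, ?_⟩
  have h2 := lv_of hq hpq (k := 1) (by omega) n (e := e) (t := t) (w := 1) (by rw [h1, mul_one])
    (dvd_of_MM hF hq (by omega) ht)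
  rwa [X_one hp.out] at h2

/-- three degrees of level 1 in dimension 5 -/
theorem lvl_five [hp : Fact p.Prime] [CharP F p] (hpq : p ∣ q) (h3 : 3 ≤ q) :
    ∃ e e' e'', e ∈ charDegrees (PSU 5 F q) ∧ e' ∈ charDegrees (PSU 5 F q) ∧ e'' ∈ charDegrees (PSU 5 F q) ∧
      Lv p q 1 3 1 e ∧ Lv p q 1 3 1 e' ∧ Lv p q 1 3 (q ^ 3 + 1) e'' ∧ e ≠ e' ∧ e ≠ e'' ∧ e' ≠ e'' := by
  have hq2 := two_le_of_card hq
  obtain ⟨e, t, he, h1, ht⟩ := dg_pt hF hq (n := 1 + (1 + 1)) (by norm_num) (by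
    rcases Nat.lt_or_ge q 4 with h4 | h4
    · exact Or.inr ⟨by omega, by decide⟩
    · exact Or.inl h4)
  obtain ⟨m, hm0, e', t', he', h1', ht'⟩ := dg_pt_st (p := p) hF hq h3
  obtain ⟨m', hm0', hcard, e'', t'', he'', h1'', ht''⟩ := dg_pt_hc (p := p) hF hq h3
  rw [card_pt_three hq hpq hm0' hcard] at h1''
  have ht := dvd_of_MM hF hq (by norm_num) ht
  have ht' := dvd_of_MM hF hq (by norm_num) ht'
  have ht'' := dvd_of_MM hF hq (by norm_num) ht''
  have hq3 : ¬ p ∣ q ^ 3 + 1 := by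
    rw [← uu_three]
    exact not_dvd_uu hp.out hpq hq2 (by norm_num)
  have l1 : Lv p q 1 3 1 e := by
    have h2 := lv_of hq hpq (k := 1) (by omega) _ (e := e) (t := t) (w := 1) (by rw [h1, mul_one]) ht
    rwa [X_one hp.out] at h2
  have l2 : Lv p q 1 3 1 e' := by
    have h2 := lv_of hq hpq (k := 1) (by omega) _ (e := e') (t := t') (w := p ^ m) h1' ht'
    rwa [X_pow hp.out] at h2
  have l3 : Lv p q 1 3 (q ^ 3 + 1) e'' := by
    have h2 := lv_of hq hpq (k := 1) (by omega) _ (e := e'') (t := t'') (w := q ^ 3 + 1) h1'' ht''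
    rwa [X_self hq3] at h2
  have l4 : ∀ {y}, Lv p q 1 3 1 y → X p y < X p e'' := by
    rintro y ⟨s, hs, h4⟩
    obtain ⟨s', hs', h5⟩ := l3
    refine lt_gen h4 h5 (Nat.pos_of_dvd_of_pos hs (by omega)) (Nat.le_of_dvd (by omega) hs') ?_
    have h6 : 0 < q ^ (2 * 1) - 1 := by
      rw [mul_one, ← uu_two]; exact uu_pos hq2 (by norm_num)
    have h7 : q + 1 < q ^ 3 + 1 := by
      have : q ^ 1 < q ^ 3 := Nat.pow_lt_pow_right (by omega) (by norm_num)
      rw [pow_one] at this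
      omega
    have h8 := PP_pos hq2 3 (1 + (1 + 3))
    calc (q + 1) * (q ^ (2 * 1) - 1) * (PP q 3 (1 + (1 + 3)) * 1)
        = (q + 1) * ((q ^ (2 * 1) - 1) * PP q 3 (1 + (1 + 3))) := by ring
      _ < (q ^ 3 + 1) * ((q ^ (2 * 1) - 1) * PP q 3 (1 + (1 + 3))) :=
          Nat.mul_lt_mul_of_pos_right h7 (by positivity)
      _ = _ := by ring
  refine ⟨e, e', e'', he, he', he'', l1, l2, l3, ne_pow hp.out hpq (D_ne hq p (by omega) _) hm0 h1 h1' ht', ?_, ?_⟩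
  · rintro rfl
    exact lt_irrefl _ (l4 l1)
  · rintro rfl
    exact lt_irrefl _ (l4 l2)

/-- the index for `n = 6`, `q = 3` -/
theorem index_six (h3 : q = 3) {t : ℕ} (ht : t ∣ (MM 6 F q).index) : t ≤ 2 := by
  classical
  subst h3
  have h1 := index_MM (n := 6) hF (by norm_num)
  have h2 : (MM 6 F 3).index ≠ 4 := by
    intro h4
    have h5 := Subgroup.relIndex_mul_index (H := NN 6 F 3) (K := MM 6 F 3) le_sup_left
    rw [index_NN hF (by norm_num), h4] at h5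
    have h6 : (NN 6 F 3).relIndex (MM 6 F 3) = 1 := by omega
    have h7 := Subgroup.relIndex_eq_one.1 h6
    obtain ⟨g, hg⟩ := exists_gen hq
    obtain ⟨ζ, hζ⟩ : ∃ ζ : Fˣ, ζ = g ^ 2 := ⟨_, rfl⟩
    have hζ4 : ζ ^ (3 + 1) = 1 := by
      rw [hζ, ← pow_mul, hg]
    have hζ6 : ζ ^ 6 ≠ 1 := by
      intro h
      rw [hζ, ← pow_mul, hg] at h
      revert h
      decide
    have hmul : ∀ v : Fin 6 → F, ((Matrix.GeneralLinearGroup.scalar (Fin 6) ζ : GL (Fin 6) F) :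
        Matrix (Fin 6) (Fin 6) F).mulVec v = (ζ : F) • v := by
      intro v
      rw [Matrix.GeneralLinearGroup.coe_scalar, Matrix.scalar_apply, ← Matrix.smul_one_eq_diagonal,
        Matrix.smul_mulVec, Matrix.one_mulVec]
    have hmem : (Matrix.GeneralLinearGroup.scalar (Fin 6) ζ : GL (Fin 6) F) ∈ GU 6 F 3 := by
      rw [LieClassical.HermBasic.mem_GU_iff]
      intro u v
      rw [hmul, hmul]
      unfold hermForm
      refine Finset.sum_congr rfl fun i _ => ?_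
      have h8 : ((ζ : F)) ^ (3 + 1) = 1 := by
        rw [← Units.val_pow_eq_pow_val, hζ4, Units.val_one]
      rw [Pi.smul_apply, Pi.smul_apply, smul_eq_mul, smul_eq_mul, mul_pow]
      calc (ζ : F) * u i * ((ζ : F) ^ 3 * v i ^ 3) = (ζ : F) ^ (3 + 1) * (u i * v i ^ 3) := by ring
        _ = _ := by rw [h8, one_mul]
    have h8 : (⟨_, hmem⟩ : GU 6 F 3) ∈ NN 6 F 3 :=
      h7 ((le_sup_right : Subgroup.center (GU 6 F 3) ≤ MM 6 F 3) (scalar_center (c := (ζ : F)) hmul))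
    have h9 : Matrix.GeneralLinearGroup.det (Matrix.GeneralLinearGroup.scalar (Fin 6) ζ : GL (Fin 6) F) = 1 := h8
    have h10 := congrArg (Units.val) h9
    rw [Matrix.GeneralLinearGroup.val_det_apply, Matrix.GeneralLinearGroup.coe_scalar, Matrix.scalar_apply,
      Matrix.det_diagonal, Finset.prod_const, Finset.card_univ, Fintype.card_fin] at h10
    apply hζ6
    apply Units.ext
    rw [Units.val_pow_eq_pow_val]
    exact h10
  obtain ⟨i, hi⟩ : ∃ i, (MM 6 F 3).index = i := ⟨_, rfl⟩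
  rw [hi] at h1 h2 ht
  have h4 := Nat.le_of_dvd (by norm_num) h1
  have h5 : i ≠ 0 := by
    rintro rfl
    omega
  have h6 := Nat.le_of_dvd (Nat.pos_of_ne_zero h5) ht
  have h7 : i ≠ 3 := by
    rintro rfl
    omega
  omega

/-- three degrees of level 2 in dimension 6 over the field with 9 elements -/
theorem lvl_six [hp : Fact p.Prime] [CharP F p] (hpq : p ∣ q) (h3 : q = 3) :
    ∃ e e' e'', e ∈ charDegrees (PSU 6 F q) ∧ e' ∈ charDegrees (PSU 6 F q) ∧ e'' ∈ charDegrees (PSU 6 F q) ∧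
      Lv p q 2 2 1 e ∧ Lv p q 2 2 1 e' ∧ (∃ w, 1 ≤ w ∧ Lv p q 2 2 w e'') ∧ e ≠ e' ∧ e ≠ e'' ∧ e' ≠ e'' := by
  obtain ⟨e, t, he, h1, ht⟩ := dg_one hF hq (k := 2) (le_refl _) (1 + (1 + 0))
  obtain ⟨m, hm0, e', t', he', h1', ht'⟩ := dg_st (p := p) hF hq (k := 2) (le_refl _) (n := 0) (by norm_num)
  obtain ⟨m', hm0', e'', t'', he'', h1'', ht''⟩ := dg_six (p := p) hF hq h3
  have hD := D_ne hq p (k := 2) (by norm_num) (1 + (1 + 0))
  obtain ⟨D, hDD⟩ : ∃ D, dg (hermF F hq (2 + (2 + (1 + (1 + 0))))) 2 = D := ⟨_, rfl⟩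
  have ht2 : t'' ≤ 2 := index_six hF hq h3 ht''
  have hd := dvd_of_MM hF hq (by norm_num) ht
  have hd' := dvd_of_MM hF hq (by norm_num) ht'
  have hd'' := dvd_of_MM hF hq (by norm_num) ht''
  have l1 : Lv p q 2 2 1 e := by
    have h2 := lv_of hq hpq (k := 2) (by omega) _ (e := e) (t := t) (w := 1) (by rw [h1, mul_one]) hd
    rwa [X_one hp.out] at h2
  have l2 : Lv p q 2 2 1 e' := by
    have h2 := lv_of hq hpq (k := 2) (by omega) _ (e := e') (t := t') (w := p ^ m) h1' hd'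
    rwa [X_pow hp.out] at h2
  have l3 : Lv p q 2 2 (X p (p ^ m' + 1)) e'' :=
    lv_of hq hpq (k := 2) (by omega) _ (e := e'') (t := t'') (w := p ^ m' + 1) h1'' hd''
  rw [hDD] at hD h1 h1' h1''
  refine ⟨e, e', e'', he, he', he'', l1, l2, ⟨_, X_pos (Nat.succ_ne_zero _), l3⟩,
    ne_pow hp.out hpq hD hm0 h1 h1' hd', ?_, ?_⟩
  · rintro rfl
    have h4 : e * t'' = e * (t * (p ^ m' + 1)) := by rw [h1'', ← h1, mul_assoc]
    have h5 : e ≠ 0 := by
      rintro rfl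
      rw [zero_mul] at h1
      exact hD h1.symm
    have h6 := Nat.eq_of_mul_eq_mul_left (Nat.pos_of_ne_zero h5) h4
    have h7 : 0 < t := Nat.pos_of_dvd_of_pos hd (by omega)
    have h8 : p ^ m' + 1 ≤ t * (p ^ m' + 1) := Nat.le_mul_of_pos_left _ h7
    have h9 : p ^ 1 ≤ p ^ m' := Nat.pow_le_pow_right hp.out.pos hm0'
    have h10 := hp.out.two_le
    rw [pow_one] at h9
    omega
  · rintro rfl
    have h4 : D * (p ^ m * t'') = D * ((p ^ m' + 1) * t') := by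
      calc D * (p ^ m * t'') = e' * t' * t'' := by rw [h1']; ring
        _ = e' * t'' * t' := by ring
        _ = _ := by rw [h1'']; ring
    have h5 := Nat.eq_of_mul_eq_mul_left (Nat.pos_of_ne_zero hD) h4
    have h6 : p ∣ (p ^ m' + 1) * t' := by
      rw [← h5]
      exact Dvd.dvd.mul_right (dvd_pow_self p hm0.ne') _
    rcases (hp.out.dvd_mul).1 h6 with h7 | h7
    · have h8 := (Nat.dvd_add_right (dvd_pow_self p hm0'.ne')).1 h7
      exact hp.out.one_lt.ne' (Nat.dvd_one.1 h8)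
    · exact not_dvd_t hp.out hpq hd' h7

end lvl

theorem ne_X {p a b : ℕ} (h : X p a < X p b) : a ≠ b := by
  rintro rfl
  exact lt_irrefl _ h

theorem ne_z {p a b z : ℕ} (h : z ∣ X p a) (h' : ¬ z ∣ X p b) : a ≠ b := by
  rintro rfl
  exact h' h

/-- **at least eight degrees** -/
theorem eight_un (hF : Fintype.card F = q ^ 2) {n : ℕ} (hn : 5 ≤ n) (h : 8 ≤ n ∨ 3 ≤ q) : Eight (PSU n F q) := by
  obtain ⟨p, r, hp, hc, hr, hr0⟩ := LieClassical.HermBasic.exists_prime_pow hF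
  have hpF : Fact p.Prime := ⟨hp⟩
  have hpq : p ∣ q := by rw [hr]; exact dvd_pow_self p hr0.ne'
  have hq2 := LieClassical.HermBasic.two_le hF
  have hq : Nat.card F = q ^ 2 := by rw [Nat.card_eq_fintype_card, hF]
  obtain ⟨m, rfl⟩ : ∃ m, n = m + 4 := ⟨n - 4, by omega⟩
  obtain ⟨st, mst, hst, hst1⟩ := exists_st hF hpq (n := m + 4) hn
  obtain ⟨f, g, mf, mg, hf, hg, hfg⟩ := exists_fg hF hr hpq m
  have hf1 : 1 < X p f := hf.one_lt hq2 (by omega) (by omega)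
  have hg1 : 1 < X p g := hg.one_lt hq2 (by omega) (by omega)
  have h11 : (1 : ℕ) ≤ 1 := le_refl _
  have hcase : 7 ≤ m ∨ m = 6 ∨ m = 5 ∨ m = 4 ∨ m = 3 ∨ m = 2 ∨ m = 1 := by omega
  rcases hcase with hm | rfl | rfl | rfl | rfl | rfl | rfl
  · -- `n ≥ 11`
    obtain ⟨k, rfl⟩ : ∃ k, m = k + 1 + 2 + 2 + 2 := ⟨m - 7, by omega⟩
    obtain ⟨a, ma, la⟩ := lvl_one hF hq hpq (N := k + 1 + 2 + 2 + 2 + 4) (k := 2) (n := k + 1 + 2 + 2 + 2)
      (by norm_num) (by omega)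
    obtain ⟨b, mb, lb⟩ := lvl_one hF hq hpq (N := k + 1 + 2 + 2 + 2 + 4) (k := 3) (n := k + 1 + 2 + 2)
      (by norm_num) (by omega)
    obtain ⟨c, mc, lc⟩ := lvl_one hF hq hpq (N := k + 1 + 2 + 2 + 2 + 4) (k := 4) (n := k + 1 + 2)
      (by norm_num) (by omega)
    obtain ⟨d, md, ld⟩ := lvl_one hF hq hpq (N := k + 1 + 2 + 2 + 2 + 4) (k := 5) (n := k + 1)
      (by norm_num) (by omega)
    have haf := la.two_f hq2 (by omega) h11 hf
    have hag := la.two_g hq2 (by omega) h11 hg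
    have hab := Lv.step hq2 (by norm_num) (by omega) h11 la lb
    have hbc := Lv.step hq2 (by norm_num) (by omega) h11 lb lc
    have hcd := Lv.step hq2 (by norm_num) (by omega) h11 lc ld
    exact core hp mst mf mg ma mb mc md hst hst1 hf1 hg1 hfg ⟨haf, hag⟩ ⟨haf.trans hab, hag.trans hab⟩
      ⟨haf.trans (hab.trans hbc), hag.trans (hab.trans hbc)⟩
      ⟨haf.trans (hab.trans (hbc.trans hcd)), hag.trans (hab.trans (hbc.trans hcd))⟩
      (ne_X hab) (ne_X (hab.trans hbc)) (ne_X (hab.trans (hbc.trans hcd))) (ne_X hbc) (ne_X (hbc.trans hcd)) (ne_X hcd)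
  · -- `n = 10`
    obtain ⟨a, ma, la⟩ := lvl_one hF hq hpq (N := 6 + 4) (k := 2) (n := 4 + 2) (by norm_num) (by omega)
    obtain ⟨b, mb, lb⟩ := lvl_one hF hq hpq (N := 6 + 4) (k := 3) (n := 2 + 2) (by norm_num) (by omega)
    obtain ⟨c, d, mc, md, lc, ld, hcd⟩ := lvl_two hF hq hpq (N := 6 + 4) (k := 4) (n := 0) (by norm_num)
      (by norm_num) (by omega)
    have haf := la.two_f hq2 (by omega) h11 hf
    have hag := la.two_g hq2 (by omega) h11 hg
    have hab := Lv.step hq2 (by norm_num) (by omega) h11 la lb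
    have hbc := Lv.step hq2 (n := 2) (by norm_num) (by omega) h11 lb lc
    have hbd := Lv.step hq2 (n := 2) (by norm_num) (by omega) h11 lb ld
    exact core hp mst mf mg ma mb mc md hst hst1 hf1 hg1 hfg ⟨haf, hag⟩ ⟨haf.trans hab, hag.trans hab⟩
      ⟨haf.trans (hab.trans hbc), hag.trans (hab.trans hbc)⟩ ⟨haf.trans (hab.trans hbd), hag.trans (hab.trans hbd)⟩
      (ne_X hab) (ne_X (hab.trans hbc)) (ne_X (hab.trans hbd)) (ne_X hbc) (ne_X hbd) hcd
  · -- `n = 9`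
    obtain ⟨a, ma, la⟩ := lvl_one hF hq hpq (N := 5 + 4) (k := 2) (n := 3 + 2) (by norm_num) (by omega)
    obtain ⟨b, c, mb, mc, lb, lc, hbc⟩ := lvl_two hF hq hpq (N := 5 + 4) (k := 3) (n := 1) (by norm_num)
      (by norm_num) (by omega)
    obtain ⟨d, md, ld⟩ := lvl_one hF hq hpq (N := 5 + 4) (k := 4) (n := 1) (by norm_num) (by omega)
    have haf := la.two_f hq2 (by omega) h11 hf
    have hag := la.two_g hq2 (by omega) h11 hg
    have hab := Lv.step hq2 (n := 3) (by norm_num) (by omega) h11 la lb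
    have hac := Lv.step hq2 (n := 3) (by norm_num) (by omega) h11 la lc
    have hbd := Lv.step hq2 (n := 1) (by norm_num) (by omega) h11 lb ld
    have hcd := Lv.step hq2 (n := 1) (by norm_num) (by omega) h11 lc ld
    exact core hp mst mf mg ma mb mc md hst hst1 hf1 hg1 hfg ⟨haf, hag⟩ ⟨haf.trans hab, hag.trans hab⟩
      ⟨haf.trans hac, hag.trans hac⟩ ⟨haf.trans (hab.trans hbd), hag.trans (hab.trans hbd)⟩
      (ne_X hab) (ne_X hac) (ne_X (hab.trans hbd)) hbc (ne_X hbd) (ne_X hcd)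
  · -- `n = 8`
    obtain ⟨z, hz, hz8, hz7⟩ := exists_eight hq2
    obtain ⟨a, ma, la⟩ := lvl_one hF hq hpq (N := 4 + 4) (k := 2) (n := 2 + 2) (by norm_num) (by omega)
    obtain ⟨b, c, mb, mc, lb, lc, hbc⟩ := lvl_two hF hq hpq (N := 4 + 4) (k := 3) (n := 0) (by norm_num)
      (by norm_num) (by omega)
    obtain ⟨d, md, ld⟩ := lvl_one hF hq hpq (N := 4 + 4) (k := 4) (n := 0) (by norm_num) (by omega)
    have haf := la.two_f hq2 (by omega) h11 hf
    have hag := la.two_g hq2 (by omega) h11 hg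
    have hab := Lv.step hq2 (n := 2) (by norm_num) (by omega) h11 la lb
    have hac := Lv.step hq2 (n := 2) (by norm_num) (by omega) h11 la lc
    have hzd := Lv.not_dvd hq2 (m := 7) (by norm_num) ld hz hz7
    have hz1 := hz7 1 (by norm_num) (by norm_num)
    have hza := la.dvd hz hz1 (hz7 4 (by norm_num) (by norm_num)) hz8 (by norm_num)
    have hzb := lb.dvd hz hz1 (hz7 6 (by norm_num) (by norm_num)) hz8 (by norm_num)
    have hzc := lc.dvd hz hz1 (hz7 6 (by norm_num) (by norm_num)) hz8 (by norm_num)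
    exact core hp mst mf mg ma mb mc md hst hst1 hf1 hg1 hfg ⟨haf, hag⟩ ⟨haf.trans hab, hag.trans hab⟩
      ⟨haf.trans hac, hag.trans hac⟩ ⟨ld.spec_f hq2 (m := 4) (by norm_num) hf, ld.spec_g hq2 (m := 4) (by norm_num) hg⟩
      (ne_X hab) (ne_X hac) (ne_z hza hzd) hbc (ne_z hzb hzd) (ne_z hzc hzd)
  · -- `n = 7`
    have hq3 : 3 ≤ q := by omega
    obtain ⟨a, ma, la⟩ := lvl_pt hF hq hpq (N := 3 + 4) (n := 3 + 2) (by norm_num) (by omega) (by
      rcases Nat.lt_or_ge q 4 with h4 | h4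
      · exact Or.inr ⟨by omega, by decide⟩
      · exact Or.inl h4)
    obtain ⟨b, c, mb, mc, lb, lc, hbc⟩ := lvl_two hF hq hpq (N := 3 + 4) (k := 2) (n := 1) (by norm_num)
      (by norm_num) (by omega)
    obtain ⟨d, md, ld⟩ := lvl_one hF hq hpq (N := 3 + 4) (k := 3) (n := 1) (by norm_num) (by omega)
    have haf := la.one_f (n := 3) hq2 (by omega) h11 hf
    have hag := la.one_g (n := 3) hq2 h11 hg
    have hab := Lv.step hq2 (n := 3) (by norm_num) (by omega) h11 la lb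
    have hac := Lv.step hq2 (n := 3) (by norm_num) (by omega) h11 la lc
    have hbd := Lv.step hq2 (n := 1) (by norm_num) (by omega) h11 lb ld
    have hcd := Lv.step hq2 (n := 1) (by norm_num) (by omega) h11 lc ld
    exact core hp mst mf mg ma mb mc md hst hst1 hf1 hg1 hfg ⟨haf, hag⟩ ⟨haf.trans hab, hag.trans hab⟩
      ⟨haf.trans hac, hag.trans hac⟩ ⟨haf.trans (hab.trans hbd), hag.trans (hab.trans hbd)⟩
      (ne_X hab) (ne_X hac) (ne_X (hab.trans hbd)) hbc (ne_X hbd) (ne_X hcd)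
  · -- `n = 6`
    have hq3 : 3 ≤ q := by omega
    obtain ⟨z, hz, hz6, hz5⟩ := exists_six hq2
    obtain ⟨d, md, ld⟩ := lvl_one hF hq hpq (N := 2 + 4) (k := 3) (n := 0) (by norm_num) (by omega)
    have hzd := Lv.not_dvd hq2 (m := 5) (by norm_num) ld hz hz5
    have hz1 := hz5 1 (by norm_num) (by norm_num)
    have hz2 := hz5 2 (by norm_num) (by norm_num)
    have hz4 := hz5 4 (by norm_num) (by norm_num)
    have hdf := ld.spec_f hq2 (m := 2) (by norm_num) hf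
    have hdg := ld.spec_g hq2 (m := 2) (by norm_num) hg
    rcases Nat.lt_or_ge q 4 with h4 | h4
    · obtain ⟨a, b, c, ma, mb, mc, la, lb, ⟨w, hw, lc⟩, hab, hac, hbc⟩ := lvl_six hF hq hpq (by omega)
      have hza := la.dvd hz hz1 hz4 hz6 (by norm_num)
      have hzb := lb.dvd hz hz1 hz4 hz6 (by norm_num)
      have hzc := lc.dvd hz hz1 hz4 hz6 (by norm_num)
      exact core hp mst mf mg ma mb mc md hst hst1 hf1 hg1 hfg
        ⟨la.two_f hq2 (by omega) h11 hf, la.two_g hq2 (by omega) h11 hg⟩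
        ⟨lb.two_f hq2 (by omega) h11 hf, lb.two_g hq2 (by omega) h11 hg⟩
        ⟨lc.two_f hq2 (by omega) hw hf, lc.two_g hq2 (by omega) hw hg⟩ ⟨hdf, hdg⟩
        hab hac (ne_z hza hzd) hbc (ne_z hzb hzd) (ne_z hzc hzd)
    · obtain ⟨a, ma, la⟩ := lvl_pt hF hq hpq (N := 2 + 4) (n := 2 + 2) (by norm_num) (by omega) (Or.inl h4)
      obtain ⟨b, c, mb, mc, lb, lc, hbc⟩ := lvl_two hF hq hpq (N := 2 + 4) (k := 2) (n := 0) (by norm_num)
        (by norm_num) (by omega)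
      have haf := la.one_f (n := 2) hq2 (by omega) h11 hf
      have hag := la.one_g (n := 2) hq2 h11 hg
      have hab := Lv.step hq2 (n := 2) (by norm_num) (by omega) h11 la lb
      have hac := Lv.step hq2 (n := 2) (by norm_num) (by omega) h11 la lc
      have hza := la.dvd hz hz1 hz2 hz6 (by norm_num)
      have hzb := lb.dvd hz hz1 hz4 hz6 (by norm_num)
      have hzc := lc.dvd hz hz1 hz4 hz6 (by norm_num)
      exact core hp mst mf mg ma mb mc md hst hst1 hf1 hg1 hfg ⟨haf, hag⟩ ⟨haf.trans hab, hag.trans hab⟩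
        ⟨haf.trans hac, hag.trans hac⟩ ⟨hdf, hdg⟩
        (ne_X hab) (ne_X hac) (ne_z hza hzd) hbc (ne_z hzb hzd) (ne_z hzc hzd)
  · -- `n = 5`
    have hq3 : 3 ≤ q := by omega
    obtain ⟨a, b, c, ma, mb, mc, la, lb, lc, hab, hac, hbc⟩ := lvl_five hF hq hpq hq3
    obtain ⟨d, md, ld⟩ := lvl_one hF hq hpq (N := 1 + 4) (k := 2) (n := 1) (by norm_num) (by omega)
    have haf := la.one_f (n := 1) hq2 (by omega) h11 hf
    have hag := la.one_g (n := 1) hq2 h11 hg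
    have hbf := lb.one_f (n := 1) hq2 (by omega) h11 hf
    have hbg := lb.one_g (n := 1) hq2 h11 hg
    have hw : 1 ≤ q ^ 3 + 1 := by omega
    have hcf := lc.one_f (n := 1) hq2 (by omega) hw hf
    have hcg := lc.one_g (n := 1) hq2 hw hg
    have had := Lv.step hq2 (n := 1) (by norm_num) (by omega) h11 la ld
    have hbd := Lv.step hq2 (n := 1) (by norm_num) (by omega) h11 lb ld
    refine core hp mst mf mg ma mb mc md hst hst1 hf1 hg1 hfg ⟨haf, hag⟩ ⟨hbf, hbg⟩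
      ⟨hcf, hcg⟩ ⟨haf.trans had, hag.trans had⟩ hab hac (ne_X had) hbc (ne_X hbd) ?_
    rintro rfl
    obtain ⟨t, ht, h1⟩ := lc
    obtain ⟨s, hs, h2⟩ := ld
    have e1 : PP q 3 (1 + (1 + 3)) = uu q 4 * uu q 5 := by
      rw [PP_bot (by norm_num), PP_bot (by norm_num), PP_self, mul_one]
    have e2 : PP q 1 (2 + (2 + 1)) = uu q 2 * (uu q 3 * (uu q 4 * uu q 5)) := by
      rw [PP_bot (by norm_num), PP_bot (by norm_num), PP_bot (by norm_num), PP_bot (by norm_num), PP_self, mul_one]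
    rw [e1, mul_one, ← uu_two] at h1
    rw [e2, four_eq hq2, mul_one, ← uu_two, uu_three] at h2
    obtain ⟨x, hx⟩ : ∃ x, X p c = x := ⟨_, rfl⟩
    rw [hx] at h1 h2
    have hY := uu_pos hq2 (i := 2) (by norm_num)
    have hx0 : 0 < x := by rw [← hx]; omega
    have h3 : (x * uu q 2) * (s * (q ^ 2 + 1)) = (x * uu q 2) * (t * uu q 2) := by
      calc (x * uu q 2) * (s * (q ^ 2 + 1)) = x * s * (uu q 2 * (q ^ 2 + 1)) := by ring
        _ = uu q 2 * (uu q 4 * uu q 5 * (q ^ 3 + 1)) := by rw [h2]; ring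
        _ = uu q 2 * (x * t * uu q 2) := by rw [h1]
        _ = _ := by ring
    have h4 := Nat.eq_of_mul_eq_mul_left (Nat.mul_pos hx0 hY) h3
    have h5 : uu q 2 + 2 = q ^ 2 + 1 := by
      rw [uu_two]
      have : 1 ≤ q ^ 2 := Nat.one_le_pow _ _ (by omega)
      omega
    have h6 := Nat.le_of_dvd (by omega) ht
    have h7 : 0 < s := Nat.pos_of_dvd_of_pos hs (by omega)
    rw [← h5] at h4
    obtain ⟨Y, hYY⟩ : ∃ Y, uu q 2 = Y := ⟨_, rfl⟩
    rw [hYY] at h4 h5 hY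
    have h8 : s < t := by
      by_contra h9
      have h9 : t ≤ s := not_lt.1 h9
      have h10 : t * Y ≤ s * Y := Nat.mul_le_mul_right _ h9
      have h11 : s * (Y + 2) = s * Y + 2 * s := by ring
      omega
    obtain ⟨v, rfl⟩ : ∃ v, t = s + 1 + v := ⟨t - s - 1, by omega⟩
    have h9 : q * 3 ≤ q ^ 2 := by rw [pow_two]; exact Nat.mul_le_mul_left _ hq3
    have h10 : (s + 1 + v) * Y = s * Y + Y + v * Y := by ring
    have h11 : s * (Y + 2) = s * Y + 2 * s := by ring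
    have h12 : 0 ≤ v * Y := Nat.zero_le _
    omega

end Cfsg.Agent.H7.Eight.UnMain
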