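import Cfsg.Agent.H113.PSU.Facts

/-!
# Arithmetic of the degrees of `PSU_n(q)` (helper7)

`X p e` : the part of `e` prime to `p`; `lt_gen` : comparison of two degrees; `gap` : the inequality for two
consecutive levels.
-/

set_option autoImplicit false
set_option linter.unusedSectionVars false

namespace Cfsg.Agent.H7.Eight.UnNum

open Cfsg.Agent.H113.PSU.Levi Cfsg.Agent.H113.PSU.Facts

/-- the part prime to `p` -/
def X (p e : ℕ) : ℕ := e / p ^ e.factorization p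

theorem X_mul (p a b : ℕ) : X p (a * b) = X p a * X p b := Nat.ordCompl_mul a b p

theorem X_self {p a : ℕ} (h : ¬ p ∣ a) : X p a = a := by
  unfold X
  rw [Nat.factorization_eq_zero_of_not_dvd h, pow_zero, Nat.div_one]

theorem X_one {p : ℕ} (hp : p.Prime) : X p 1 = 1 := X_self fun h => hp.one_lt.ne' (Nat.dvd_one.1 h)

theorem X_pow {p : ℕ} (hp : p.Prime) (m : ℕ) : X p (p ^ m) = 1 := by
  unfold X
  rw [hp.factorization_pow, Finsupp.single_eq_same, Nat.div_self (pow_pos hp.pos _)]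

theorem X_pos {p e : ℕ} (he : e ≠ 0) : 0 < X p e := Nat.ordCompl_pos p he

section

variable {q : ℕ}

theorem not_dvd_uu {p : ℕ} (hp : p.Prime) (hpq : p ∣ q) (hq : 2 ≤ q) {i : ℕ} (hi : 1 ≤ i) : ¬ p ∣ uu q i :=
  fun h => not_dvd_q hp hi (by omega) h hpq

theorem not_dvd_sub {p : ℕ} (hp : p.Prime) (hpq : p ∣ q) (hq : 2 ≤ q) {i : ℕ} (hi : 1 ≤ i) : ¬ p ∣ q ^ i - 1 := by
  intro h
  have h1 : 1 ≤ q ^ i := Nat.one_le_pow _ _ (by omega)
  have h2 := (Nat.dvd_sub_iff_right h1 (hpq.trans (dvd_pow_self _ (by omega)))).1 h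
  exact hp.one_lt.ne' (Nat.dvd_one.1 h2)

theorem not_dvd_t {p t : ℕ} (hp : p.Prime) (hpq : p ∣ q) (ht : t ∣ q + 1) : ¬ p ∣ t := by
  intro h
  have h1 := (Nat.dvd_add_right hpq).1 (h.trans ht)
  exact hp.one_lt.ne' (Nat.dvd_one.1 h1)

theorem uu_lt (hq : 2 ≤ q) {i : ℕ} (hi : 2 ≤ i) : uu q i < uu q (i + 1) := by
  have h1 : q ^ i * 2 ≤ q ^ (i + 1) := by rw [pow_succ]; exact Nat.mul_le_mul_left _ hq
  have h2 : 2 ^ 2 ≤ q ^ i := (Nat.pow_le_pow_left hq 2).trans (Nat.pow_le_pow_right (by omega) hi)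
  unfold uu
  by_cases h : Even i
  · rw [if_pos h, if_neg (by rw [Nat.even_add_one, not_not]; exact h)]
    omega
  · rw [if_neg h, if_pos (by rw [Nat.even_add_one]; exact h)]
    omega

theorem uu_le (hq : 2 ≤ q) {i j : ℕ} (hi : 2 ≤ i) (hij : i ≤ j) : uu q i ≤ uu q j := by
  induction j, hij using Nat.le_induction with
  | base => exact le_refl _
  | succ j hj ih => exact ih.trans (uu_lt hq (hi.trans hj)).le

theorem uu_lt' (hq : 2 ≤ q) {i j : ℕ} (hi : 2 ≤ i) (hij : i < j) : uu q i < uu q j :=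
  (uu_lt hq hi).trans_le (uu_le hq (by omega) hij)

theorem uu_one : uu q 1 = q + 1 := by
  unfold uu; rw [if_neg (by decide), pow_one]

theorem uu_two : uu q 2 = q ^ 2 - 1 := by
  unfold uu; rw [if_pos (by decide)]

theorem uu_three : uu q 3 = q ^ 3 + 1 := by
  unfold uu; rw [if_neg (by decide)]

theorem uu_four : uu q 4 = q ^ 4 - 1 := by
  unfold uu; rw [if_pos (by decide)]

theorem uu_even {i : ℕ} (hi : Even i) : uu q i = q ^ i - 1 := by
  unfold uu; rw [if_pos hi]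

theorem uu_odd {i : ℕ} (hi : ¬ Even i) : uu q i = q ^ i + 1 := by
  unfold uu; rw [if_neg hi]

/-- **comparison of two degrees** -/
theorem lt_gen {x t C A x' t' C' A' : ℕ} (h : x * t * C = A) (h' : x' * t' * C' = A') (ht : 0 < t) (ht' : t' ≤ q + 1)
    (hlt : (q + 1) * C' * A < A' * C) : x < x' := by
  by_contra hc
  have hc : x' ≤ x := not_lt.1 hc
  have h1 : A' * C ≤ (q + 1) * C' * A := by
    calc A' * C = x' * t' * C' * C := by rw [h']
      _ ≤ x * (q + 1) * C' * C := by gcongr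
      _ = x * 1 * C * ((q + 1) * C') := by ring
      _ ≤ x * t * C * ((q + 1) * C') := by gcongr; exact ht
      _ = (q + 1) * C' * A := by rw [h]; ring
  exact absurd hlt (not_lt.2 h1)

/-- **consecutive levels** -/
theorem gap (hq : 2 ≤ q) {j k : ℕ} (hj : 2 ≤ j) (hk : 1 ≤ k) :
    (q + 1) * (q ^ (2 * (k + 1)) - 1) < uu q j * uu q (j + 1) * (q ^ (2 * k) - 1) := by
  have h1 : uu q 2 * uu q 3 ≤ uu q j * uu q (j + 1) := Nat.mul_le_mul (uu_le hq (le_refl _) hj) (uu_le hq (by omega) (by omega))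
  refine lt_of_lt_of_le ?_ (Nat.mul_le_mul_right _ h1)
  rw [uu_two, uu_three, sq_sub (by omega)]
  obtain ⟨y, hy⟩ : ∃ y, q ^ (2 * k) = y := ⟨_, rfl⟩
  have hy2 : q ^ 2 ≤ y := by rw [← hy]; exact Nat.pow_le_pow_right (by omega) (by omega)
  have e1 : q ^ (2 * (k + 1)) = q ^ 2 * y := by rw [← hy, ← pow_add]; congr 1; ring
  rw [e1, hy]
  obtain ⟨r, rfl⟩ : ∃ r, q = r + 2 := ⟨q - 2, by omega⟩
  obtain ⟨z, rfl⟩ : ∃ z, y = (r + 2) ^ 2 + z := ⟨y - (r + 2) ^ 2, by omega⟩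
  have e2 : (r + 2) ^ 2 * ((r + 2) ^ 2 + z) - 1 + 1 = (r + 2) ^ 2 * ((r + 2) ^ 2 + z) := by
    have : 0 < (r + 2) ^ 2 * ((r + 2) ^ 2 + z) := by positivity
    omega
  have e3 : (r + 2) ^ 2 + z - 1 + 1 = (r + 2) ^ 2 + z := by
    have : 0 < (r + 2) ^ 2 + z := by positivity
    omega
  have e4 : r + 2 - 1 = r + 1 := by omega
  rw [e4]
  obtain ⟨a, ha⟩ : ∃ a, (r + 2) ^ 2 * ((r + 2) ^ 2 + z) - 1 = a := ⟨_, rfl⟩
  obtain ⟨b, hb⟩ : ∃ b, (r + 2) ^ 2 + z - 1 = b := ⟨_, rfl⟩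
  rw [ha] at e2 ⊢
  rw [hb] at e3 ⊢
  have e5 : a + 1 = (r + 2) ^ 2 * (b + 1) := by rw [e2, e3]
  have e6 : (r + 2) ^ 2 ≤ b + 1 := by rw [e3]; omega
  have e7 : a < (r + 1) * ((r + 2) ^ 3 + 1) * b := by
    nlinarith [e5, e6, Nat.zero_le (r * b), Nat.zero_le (r * r * b), Nat.zero_le (r * r * r * b), Nat.zero_le b]
  calc (r + 2 + 1) * a < (r + 2 + 1) * ((r + 1) * ((r + 2) ^ 3 + 1) * b) := by
        exact Nat.mul_lt_mul_of_pos_left e7 (by omega)
    _ = (r + 1) * (r + 2 + 1) * ((r + 2) ^ 3 + 1) * b := by ring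

/-- the product of the `uu` -/
def PP (q n N : ℕ) : ℕ := ∏ i ∈ Finset.Ico n N, uu q (i + 1)

theorem PP_bot {n N : ℕ} (h : n < N) : PP q n N = uu q (n + 1) * PP q (n + 1) N := by
  unfold PP
  rw [Finset.prod_eq_prod_Ico_succ_bot h]

theorem PP_self (n : ℕ) : PP q n n = 1 := by
  unfold PP
  rw [Finset.Ico_self, Finset.prod_empty]

theorem PP_top {n N : ℕ} (h : n ≤ N) : PP q n (N + 1) = PP q n N * uu q (N + 1) := by
  unfold PP
  rw [Finset.prod_Ico_succ_top h]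

theorem PP_pos (hq : 2 ≤ q) (n N : ℕ) : 0 < PP q n N := Finset.prod_pos fun _ _ => uu_pos hq (by omega)

theorem not_dvd_PP {p : ℕ} (hp : p.Prime) (n N : ℕ) (h : ∀ i, n < i → i ≤ N → ¬ p ∣ uu q i) : ¬ p ∣ PP q n N := by
  intro h1
  obtain ⟨i, hi, h2⟩ := (Prime.dvd_finsetProd_iff hp.prime _).1 h1
  rw [Finset.mem_Ico] at hi
  exact h _ (by omega) (by omega) h2

/-- the equation of a degree of level `k` -/
def Lv (p q k n w e : ℕ) : Prop := ∃ t, t ∣ q + 1 ∧ X p e * t * (q ^ (2 * k) - 1) = PP q n (k + (k + n)) * w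

variable {p : ℕ}

theorem Lv.step (hq : 2 ≤ q) {k n w e e' : ℕ} (hk : 1 ≤ k) (hn : 1 ≤ n) (hw : 1 ≤ w) (h : Lv p q k (n + 2) 1 e)
    (h' : Lv p q (k + 1) n w e') : X p e < X p e' := by
  obtain ⟨t, ht, h1⟩ := h
  obtain ⟨t', ht', h2⟩ := h'
  refine lt_gen h1 h2 (Nat.pos_of_dvd_of_pos ht (by omega)) (Nat.le_of_dvd (by omega) ht') ?_
  have e1 : k + 1 + (k + 1 + n) = k + (k + (n + 2)) := by ring
  have h3 := gap hq (j := n + 1) (k := k) (by omega) hk
  have h4 := PP_pos hq (n + 2) (k + (k + (n + 2)))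
  rw [e1, PP_bot (n := n) (by omega), PP_bot (n := n + 1) (by omega), mul_one]
  calc (q + 1) * (q ^ (2 * (k + 1)) - 1) * PP q (n + 2) (k + (k + (n + 2)))
      < uu q (n + 1) * uu q (n + 1 + 1) * (q ^ (2 * k) - 1) * PP q (n + 2) (k + (k + (n + 2))) :=
        Nat.mul_lt_mul_of_pos_right h3 h4
    _ = uu q (n + 1) * (uu q (n + 1 + 1) * PP q (n + 1 + 1) (k + (k + (n + 2)))) * 1 * (q ^ (2 * k) - 1) := by
        rw [show n + 1 + 1 = n + 2 from rfl]; ring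
    _ ≤ uu q (n + 1) * (uu q (n + 1 + 1) * PP q (n + 1 + 1) (k + (k + (n + 2)))) * w * (q ^ (2 * k) - 1) := by
        gcongr

/-- the equation of the two rank 3 degrees -/
def Fg (p q a b e : ℕ) : Prop := X p e * 1 * ((q ^ 2 - 1) * (q + 1)) = uu q a * uu q b

theorem four_eq (hq : 2 ≤ q) : q ^ (2 * 2) - 1 = (q ^ 2 - 1) * (q ^ 2 + 1) := by
  have h : 1 ≤ q ^ 2 := Nat.one_le_pow _ _ (by omega)
  obtain ⟨y, hy⟩ : ∃ y, q ^ 2 = y + 1 := ⟨q ^ 2 - 1, by omega⟩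
  have e1 : q ^ (2 * 2) = (y + 1) * (y + 1) := by rw [pow_mul, hy, pow_two]
  rw [e1, hy, Nat.add_sub_cancel]
  have : (y + 1) * (y + 1) = y * (y + 1 + 1) + 1 := by ring
  omega

theorem sq_lt_uu (hq : 2 ≤ q) {i : ℕ} (hi : 3 ≤ i) : q ^ 2 + 1 < uu q i := by
  refine lt_of_lt_of_le ?_ (uu_le hq (by norm_num) hi)
  rw [uu_three]
  have h : q ^ 2 < q ^ 3 := Nat.pow_lt_pow_right (by omega) (by norm_num)
  omega

theorem Lv.two_f (hq : 2 ≤ q) {n w e f : ℕ} (hn : 1 ≤ n) (hw : 1 ≤ w) (h : Lv p q 2 n w e)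
    (hf : Fg p q (n + 4) (n + 1) f) : X p f < X p e := by
  obtain ⟨t', ht', h2⟩ := h
  refine lt_gen hf h2 one_pos (Nat.le_of_dvd (by omega) ht') ?_
  have e1 : 2 + (2 + n) = n + 4 := by ring
  have h1 := uu_pos hq (i := n + 1) (by omega)
  have h3 := uu_pos hq (i := n + 3) (by omega)
  have h4 := uu_pos hq (i := n + 4) (by omega)
  have h5 := sq_lt_uu hq (i := n + 2) (by omega)
  have h6 : 0 < q ^ 2 - 1 := by rw [← uu_two]; exact uu_pos hq (by norm_num)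
  rw [e1, PP_bot (by omega), PP_bot (by omega), PP_bot (by omega), PP_bot (by omega), PP_self, four_eq hq]
  calc (q + 1) * ((q ^ 2 - 1) * (q ^ 2 + 1)) * (uu q (n + 4) * uu q (n + 1))
      = (q ^ 2 + 1) * (((q + 1) * (q ^ 2 - 1)) * (uu q (n + 4) * uu q (n + 1))) := by ring
    _ < uu q (n + 2) * (((q + 1) * (q ^ 2 - 1)) * (uu q (n + 4) * uu q (n + 1))) :=
        Nat.mul_lt_mul_of_pos_right h5 (by positivity)
    _ ≤ uu q (n + 2) * (((q + 1) * (q ^ 2 - 1)) * (uu q (n + 4) * uu q (n + 1))) * (uu q (n + 3) * w) :=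
        Nat.le_mul_of_pos_right _ (by positivity)
    _ = _ := by rw [show n + 1 + 1 = n + 2 from rfl, show n + 2 + 1 = n + 3 from rfl, show n + 3 + 1 = n + 4 from rfl]; ring

theorem Lv.two_g (hq : 2 ≤ q) {n w e g : ℕ} (hn : 1 ≤ n) (hw : 1 ≤ w) (h : Lv p q 2 n w e)
    (hg : Fg p q (n + 3) (n + 2) g) : X p g < X p e := by
  obtain ⟨t', ht', h2⟩ := h
  refine lt_gen hg h2 one_pos (Nat.le_of_dvd (by omega) ht') ?_
  have e1 : 2 + (2 + n) = n + 4 := by ring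
  have h1 := uu_pos hq (i := n + 1) (by omega)
  have h3 := uu_pos hq (i := n + 2) (by omega)
  have h4 := uu_pos hq (i := n + 3) (by omega)
  have h5 := sq_lt_uu hq (i := n + 4) (by omega)
  have h6 : 0 < q ^ 2 - 1 := by rw [← uu_two]; exact uu_pos hq (by norm_num)
  rw [e1, PP_bot (by omega), PP_bot (by omega), PP_bot (by omega), PP_bot (by omega), PP_self, four_eq hq]
  calc (q + 1) * ((q ^ 2 - 1) * (q ^ 2 + 1)) * (uu q (n + 3) * uu q (n + 2))
      = (q ^ 2 + 1) * (((q + 1) * (q ^ 2 - 1)) * (uu q (n + 3) * uu q (n + 2))) := by ring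
    _ < uu q (n + 4) * (((q + 1) * (q ^ 2 - 1)) * (uu q (n + 3) * uu q (n + 2))) :=
        Nat.mul_lt_mul_of_pos_right h5 (by positivity)
    _ ≤ uu q (n + 4) * (((q + 1) * (q ^ 2 - 1)) * (uu q (n + 3) * uu q (n + 2))) * (uu q (n + 1) * w) :=
        Nat.le_mul_of_pos_right _ (by positivity)
    _ = _ := by rw [show n + 1 + 1 = n + 2 from rfl, show n + 2 + 1 = n + 3 from rfl, show n + 3 + 1 = n + 4 from rfl]; ring

theorem Lv.one_f (hq : 2 ≤ q) {n w e f : ℕ} (hn : 1 ≤ n) (hw : 1 ≤ w) (h : Lv p q 1 (n + 2) w e)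
    (hf : Fg p q (n + 4) (n + 1) f) : X p f < X p e := by
  obtain ⟨t', ht', h2⟩ := h
  refine lt_gen hf h2 one_pos (Nat.le_of_dvd (by omega) ht') ?_
  have e1 : 1 + (1 + (n + 2)) = n + 4 := by ring
  have h1 := uu_pos hq (i := n + 1) (by omega)
  have h4 := uu_pos hq (i := n + 4) (by omega)
  have h5 := uu_lt' hq (i := n + 1) (j := n + 3) (by omega) (by omega)
  have h6 : 0 < q ^ 2 - 1 := by rw [← uu_two]; exact uu_pos hq (by norm_num)
  rw [e1, PP_bot (by omega), PP_bot (by omega), PP_self, mul_one]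
  calc (q + 1) * (q ^ (2 * 1) - 1) * (uu q (n + 4) * uu q (n + 1))
      = uu q (n + 1) * (((q + 1) * (q ^ 2 - 1)) * uu q (n + 4)) := by rw [mul_one]; ring
    _ < uu q (n + 3) * (((q + 1) * (q ^ 2 - 1)) * uu q (n + 4)) :=
        Nat.mul_lt_mul_of_pos_right h5 (by positivity)
    _ ≤ uu q (n + 3) * (((q + 1) * (q ^ 2 - 1)) * uu q (n + 4)) * w :=
        Nat.le_mul_of_pos_right _ (by positivity)
    _ = _ := by rw [show n + 2 + 1 = n + 3 from rfl, show n + 3 + 1 = n + 4 from rfl]; ring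

theorem Lv.one_g (hq : 2 ≤ q) {n w e g : ℕ} (hw : 1 ≤ w) (h : Lv p q 1 (n + 2) w e)
    (hg : Fg p q (n + 3) (n + 2) g) : X p g < X p e := by
  obtain ⟨t', ht', h2⟩ := h
  refine lt_gen hg h2 one_pos (Nat.le_of_dvd (by omega) ht') ?_
  have e1 : 1 + (1 + (n + 2)) = n + 4 := by ring
  have h1 := uu_pos hq (i := n + 2) (by omega)
  have h4 := uu_pos hq (i := n + 3) (by omega)
  have h5 := uu_lt' hq (i := n + 2) (j := n + 4) (by omega) (by omega)
  have h6 : 0 < q ^ 2 - 1 := by rw [← uu_two]; exact uu_pos hq (by norm_num)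
  rw [e1, PP_bot (by omega), PP_bot (by omega), PP_self, mul_one]
  calc (q + 1) * (q ^ (2 * 1) - 1) * (uu q (n + 3) * uu q (n + 2))
      = uu q (n + 2) * (((q + 1) * (q ^ 2 - 1)) * uu q (n + 3)) := by rw [mul_one]; ring
    _ < uu q (n + 4) * (((q + 1) * (q ^ 2 - 1)) * uu q (n + 3)) :=
        Nat.mul_lt_mul_of_pos_right h5 (by positivity)
    _ ≤ uu q (n + 4) * (((q + 1) * (q ^ 2 - 1)) * uu q (n + 3)) * w :=
        Nat.le_mul_of_pos_right _ (by positivity)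
    _ = _ := by rw [show n + 2 + 1 = n + 3 from rfl, show n + 3 + 1 = n + 4 from rfl]; ring

/-- the top level -/
theorem Lv.spec (hq : 2 ≤ q) {k m e : ℕ} (hm : k + (k + 0) = m + 1) (h : Lv p q k 0 1 e) :
    ∃ t, t ∣ q + 1 ∧ X p e * t * 1 = PP q 0 m := by
  obtain ⟨t, ht, h1⟩ := h
  refine ⟨t, ht, ?_⟩
  have h2 : q ^ (2 * k) - 1 = uu q (m + 1) := by
    rw [← hm, uu_even ⟨k, by omega⟩]
    congr 2
    omega
  have h3 := uu_pos hq (i := m + 1) (by omega)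
  rw [h2, mul_one, hm, PP_top (Nat.zero_le _)] at h1
  rw [mul_one]
  exact Nat.eq_of_mul_eq_mul_right h3 h1

theorem Lv.spec_f (hq : 2 ≤ q) {k m e f : ℕ} (hm : k + (k + 0) = m + 4) (h : Lv p q k 0 1 e)
    (hf : Fg p q (m + 4) (m + 1) f) : X p f < X p e := by
  obtain ⟨t', ht', h2⟩ := Lv.spec hq (m := m + 3) hm h
  refine lt_gen hf h2 one_pos (Nat.le_of_dvd (by omega) ht') ?_
  have h1 := uu_pos hq (i := m + 1) (by omega)
  have h3 := uu_pos hq (i := m + 3) (by omega)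
  have h6 : 0 < q ^ 2 - 1 := by rw [← uu_two]; exact uu_pos hq (by norm_num)
  have hPP := PP_pos hq 0 m
  have hev : Even (m + 4) := ⟨k, by omega⟩
  have h5 : uu q (m + 4) < uu q (m + 3) * uu q (m + 2) := by
    have ho : ¬ Even (m + 3) := by
      rw [show m + 4 = m + 3 + 1 from rfl, Nat.even_add_one] at hev; exact hev
    rw [uu_even hev, uu_odd ho]
    have h7 : q ≤ uu q (m + 2) := by
      refine le_trans ?_ (uu_le hq (le_refl _) (by omega))
      rw [uu_two]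
      have : 2 * q ≤ q ^ 2 := by rw [pow_two]; exact Nat.mul_le_mul_right _ hq
      omega
    have h8 : q ^ (m + 4) = q ^ (m + 3) * q := pow_succ _ _
    calc q ^ (m + 4) - 1 ≤ q ^ (m + 3) * q := by rw [h8]; exact Nat.sub_le _ _
      _ ≤ q ^ (m + 3) * uu q (m + 2) := Nat.mul_le_mul_left _ h7
      _ < q ^ (m + 3) * uu q (m + 2) + uu q (m + 2) := by
          have := uu_pos hq (i := m + 2) (by omega)
          omega
      _ = (q ^ (m + 3) + 1) * uu q (m + 2) := by ring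
  rw [PP_top (by omega), PP_top (by omega), PP_top (by omega)]
  calc (q + 1) * 1 * (uu q (m + 4) * uu q (m + 1))
      = uu q (m + 4) * ((q + 1) * uu q (m + 1)) := by ring
    _ < (uu q (m + 3) * uu q (m + 2)) * ((q + 1) * uu q (m + 1)) :=
        Nat.mul_lt_mul_of_pos_right h5 (by positivity)
    _ ≤ (uu q (m + 3) * uu q (m + 2)) * ((q + 1) * uu q (m + 1)) * (PP q 0 m * (q ^ 2 - 1)) :=
        Nat.le_mul_of_pos_right _ (by positivity)
    _ = _ := by rw [show m + 1 + 1 = m + 2 from rfl, show m + 2 + 1 = m + 3 from rfl]; ring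

theorem Lv.spec_g (hq : 2 ≤ q) {k m e g : ℕ} (hm : k + (k + 0) = m + 4) (h : Lv p q k 0 1 e)
    (hg : Fg p q (m + 3) (m + 2) g) : X p g < X p e := by
  obtain ⟨t', ht', h2⟩ := Lv.spec hq (m := m + 3) hm h
  refine lt_gen hg h2 one_pos (Nat.le_of_dvd (by omega) ht') ?_
  have h1 := uu_pos hq (i := m + 2) (by omega)
  have h3 := uu_pos hq (i := m + 3) (by omega)
  have h4 := uu_pos hq (i := m + 1) (by omega)
  have h6 : 1 < q ^ 2 - 1 := by
    have : 2 ^ 2 ≤ q ^ 2 := Nat.pow_le_pow_left hq 2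
    omega
  have hPP := PP_pos hq 0 m
  rw [PP_top (by omega), PP_top (by omega), PP_top (by omega)]
  calc (q + 1) * 1 * (uu q (m + 3) * uu q (m + 2))
      = 1 * ((q + 1) * (uu q (m + 3) * uu q (m + 2))) := by ring
    _ < (q ^ 2 - 1) * ((q + 1) * (uu q (m + 3) * uu q (m + 2))) :=
        Nat.mul_lt_mul_of_pos_right h6 (by positivity)
    _ ≤ (q ^ 2 - 1) * ((q + 1) * (uu q (m + 3) * uu q (m + 2))) * (PP q 0 m * uu q (m + 1)) :=
        Nat.le_mul_of_pos_right _ (by positivity)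
    _ = _ := by rw [show m + 1 + 1 = m + 2 from rfl, show m + 2 + 1 = m + 3 from rfl]; ring

/-- the rank 3 degrees are not powers of `p` -/
theorem Fg.one_lt (hq : 2 ≤ q) {a b e : ℕ} (ha : 3 ≤ a) (hb : 2 ≤ b) (h : Fg p q a b e) : 1 < X p e := by
  unfold Fg at h
  have h1 : uu q 2 ≤ uu q b := uu_le hq (le_refl _) hb
  have h2 : q + 1 < uu q a := by
    refine lt_of_lt_of_le ?_ (uu_le hq (by norm_num) ha)
    rw [uu_three]
    have : q ^ 1 < q ^ 3 := Nat.pow_lt_pow_right (by omega) (by norm_num)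
    rw [pow_one] at this
    omega
  have h3 := uu_pos hq (i := 2) (by norm_num)
  have h4 : uu q 2 * (q + 1) < uu q a * uu q b := by
    calc uu q 2 * (q + 1) < uu q 2 * uu q a := Nat.mul_lt_mul_of_pos_left h2 h3
      _ ≤ uu q b * uu q a := Nat.mul_le_mul_right _ h1
      _ = _ := mul_comm _ _
  rw [← h, uu_two, mul_one] at h4
  by_contra hc
  have h5 : X p e * ((q ^ 2 - 1) * (q + 1)) ≤ 1 * ((q ^ 2 - 1) * (q + 1)) := Nat.mul_le_mul_right _ (by omega)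
  omega

end

end Cfsg.Agent.H7.Eight.UnNum
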