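import Cfsg.Agent.H7.Eight.UnDegs

/-!
# An extra degree of `PSU_6(3)` (helper7)

`dg_six` : the Levi subgroup `GL_2(9) x GU_2(3)`, an odd cuspidal character of `GL_2(9)` and an odd principal series
character of `GU_2(3)`.
-/

set_option autoImplicit false
set_option linter.unusedSectionVars false

open scoped ComplexConjugate
open Cfsg

namespace Cfsg.Agent.H7.Eight.UnSix

open Cfsg.Agent.Characters Module Cfsg.Agent.H53.HC Cfsg.Agent.H477.HC Cfsg.Agent.H477.HC.CForm Cfsg.Agent.H749.Two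
open Cfsg.Agent.H139.Cusp Cfsg.Agent.H345.CusU
open Cfsg.Agent.H7.Eight.UnFrame Cfsg.Agent.H7.Eight.UnSum Cfsg.Agent.H7.Eight.UnSt Cfsg.Agent.H7.Eight.UnDown
open Cfsg.Agent.H7.Eight.UnVan Cfsg.Agent.H7.Eight.UnDegs
open Cfsg.Agent.H113.PSL.Hyper Cfsg.Agent.H113.Two.HcOne

universe u

/-- **an odd cuspidal character of `GL_2(9)`** -/
theorem exists_cus_odd {K : Type u} [Field K] [Finite K] {q : ℕ} (hq : Nat.card K = q ^ 2) (h3 : q = 3) :
    ∃ c : GL (Fin 2) K → ℂ, Cus K 2 (CForm.powHom hq) (fun _ => False) c ∧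
      ∀ a : Kˣ, a ^ 2 = 1 → a ≠ 1 → c (Matrix.GeneralLinearGroup.scalar (Fin 2) a) = - c 1 := by
  classical
  obtain ⟨L, _, _, _, hL⟩ := exists_L K 2 (by norm_num)
  obtain ⟨θ, hθ⟩ := exists_theta L
  have hcardL : Nat.card Lˣ = Nat.card K ^ 2 - 1 := by
    rw [Nat.card_units, Module.natCard_eq_pow_finrank (K := K), hL]
  have hR : Regular K 2 (powTheta θ 1 one_ne_zero) := (regular_powTheta_iff hθ one_ne_zero hL).2 (by
    intro i hi hik h
    have : i = 1 := by omega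
    subst this
    rw [hq, h3] at h
    revert h
    decide)
  refine ⟨psi L (powTheta θ 1 one_ne_zero), ⟨psi_isIrr _ hL hR, psi_isCusp L _, ?_, ?_, ?_⟩, ?_⟩
  · intro h
    have hb : q ≠ 0 := by omega
    have h1 : ∀ g : ((Fin 2 → K) →ₗ[K] (Fin 2 → K))ˣ,
        cusp L (powTheta θ 1 one_ne_zero) (g : (Fin 2 → K) →ₗ[K] (Fin 2 → K)) =
        cusp L (conjTheta (powTheta θ q hb)) (g : (Fin 2 → K) →ₗ[K] (Fin 2 → K)) := by
      intro g
      let A : GL (Fin 2) K := Matrix.GeneralLinearGroup.toLin.symm g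
      have h2 := congrFun h A
      rw [Function.comp_apply, MonoidHom.comp_apply,
        psi_map_pow (powTheta θ 1 one_ne_zero) (powTheta θ q hb) hL hq
          (fun x => by rw [powTheta_apply, powTheta_apply, pow_one, map_pow]),
        psi_invT _ hL] at h2
      have h4 : ∀ θ₁ : L →*₀ ℂ, psi L θ₁ A = cusp L θ₁ (g : (Fin 2 → K) →ₗ[K] (Fin 2 → K)) := by
        intro θ₁
        have h5 : Matrix.GeneralLinearGroup.toLin A = g := MulEquiv.apply_symm_apply _ g
        rw [← h5]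
        rfl
      rw [h4, h4, cusp_star] at h2
      exact h2.symm
    obtain ⟨i, hi, h2⟩ := (cusp_eq_iff (V := Fin 2 → K) (powTheta θ 1 one_ne_zero)
      (conjTheta (powTheta θ q hb))
      (by rw [Module.finrank_fin_fun, hL]) (by rw [hL]; exact hR)).1 h1
    rw [hL] at hi
    have h3' := (conj_powTheta_eq_iff hθ one_ne_zero hb (pow_ne_zero i (Nat.card_pos (α := K)).ne')).1 h2
    rw [hcardL, hq, h3] at h3'
    interval_cases i <;> revert h3' <;> decide
  · intro z hz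
    exact hz.elim
  · rw [psi_one L _ (by norm_num), degP_eq_Ico]
  · intro a ha ha1
    have h1 := psi_scalar (powTheta θ 1 one_ne_zero) hL a 1
    rw [mul_one] at h1
    rw [h1, powTheta_apply, pow_one]
    have h2 : θ (algebraMap K L a) ^ 2 = 1 := by
      rw [← map_pow, ← map_pow, ← Units.val_pow_eq_pow_val, ha, Units.val_one, map_one, map_one]
    rcases sq_eq_sq_iff_eq_or_eq_neg.1 (h2.trans (one_pow 2).symm) with h4 | h4
    · exfalso
      apply ha1
      have h5 : algebraMap K L a = 1 := hθ (by rw [h4, map_one])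
      exact Units.ext ((algebraMap K L).injective (by rw [h5, Units.val_one, map_one]))
    · rw [h4, neg_one_mul]

/-- **the extra degree of `PSU_6(3)`** -/
theorem dg_six {F : Type u} [Field F] [Fintype F] {q : ℕ} (hF : Fintype.card F = q ^ 2) (hq : Nat.card F = q ^ 2)
    {p : ℕ} [Fact p.Prime] [CharP F p] (h3 : q = 3) :
    ∃ m, 0 < m ∧ DG F q (2 + (2 + (1 + (1 + 0))))
      (dg (hermF F hq (2 + (2 + (1 + (1 + 0))))) 2 * (p ^ m + 1)) := by
  classical
  obtain ⟨φ, hφ⟩ := exists_faithful F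
  obtain ⟨g, hg⟩ := exists_gen hq
  obtain ⟨c, hc, hodd⟩ := exists_cus_odd hq h3
  obtain ⟨W₀, hW₀, h⟩ := hermF_cmp hq 2 (1 + (1 + 0))
  obtain ⟨W₁, hW₁, -⟩ := hermF_cmp hq 1 0
  obtain ⟨m, hm0, hm⟩ := card_pt (p := p) hq (n := 0) (by norm_num)
  have hfin := finite_iso (hermF F hq (1 + (1 + 0)))
  have hfinO := finite_Om (hermF F hq (1 + (1 + 0))) 1
  let _ := Fintype.ofFinite (hermF F hq (1 + (1 + 0))).iso
  let _ := Fintype.ofFinite ((hermF F hq (1 + (1 + 0))).Om 1)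
  have hθ2 : ∃ z : Fˣ, φ (z * Units.map ((hermF F hq (1 + (1 + 0))).σ : F →* F) z) ≠ 1 := by
    refine ⟨g, fun h1 => ?_⟩
    have h1' : φ (g * Units.map (powHom hq : F →* F) g) = φ 1 := by rw [map_one]; exact h1
    rw [map_powHom] at h1'
    have h2 := hφ h1'
    rw [← pow_succ', hg, h3] at h2
    revert h2
    decide
  have hcus := cusOne F (hermF F hq (1 + (1 + 0))).σ hθ2
  have hirr := (hermF F hq (1 + (1 + 0))).isIrr_hc_one hcus.irr hcus.cusp hcus.dual hW₁
  have hcl := Core.isIrr_isClassFunction hcus.irr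
  have hdeg1 : (hermF F hq (1 + (1 + 0))).hc (linDet φ 1) (fun _ _ => 1) 1 = ((p ^ m + 1 : ℕ) : ℂ) := by
    rw [CForm.hc_one _ hcl (fun _ _ => 1) (d := 1) (fun _ _ => rfl), mul_one]
    have e1 : linDet φ 1 (1 : GL (Fin 1) F) = 1 := by
      unfold linDet
      rw [map_one, map_one]
      rfl
    rw [e1, mul_one, ← hm]
    rfl
  have hsc : ∀ (z' : (hermF F hq (1 + (1 + 0))).iso) (a : Fˣ),
      (∀ v, (z' : (Fin (1 + (1 + 0)) → F) ≃ₗ[F] (Fin (1 + (1 + 0)) → F)) v = (a : F) • v) →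
      (hermF F hq (1 + (1 + 0))).hc (linDet φ 1) (fun _ _ => 1) z' =
        ((φ a : ℂˣ) : ℂ) * (hermF F hq (1 + (1 + 0))).hc (linDet φ 1) (fun _ _ => 1) 1 := by
    intro z' a hz'
    unfold CForm.hc
    rw [Finset.mul_sum]
    refine Finset.sum_congr rfl fun W _ => ?_
    have h1 := flagTerm_mul (θ := φ) W.2.2 (t := z') (a := a) (fun w _ => hz' w) 1
    rw [mul_one] at h1
    rw [h1, mul_assoc]
  obtain ⟨χ, hχ, hχ1, hχz⟩ := exists_hc h hc hW₀ hirr (no_disj' hq (by norm_num) hW₀)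
  refine ⟨m, hm0, to_psu hF hq (by norm_num) hχ ?_ fun z a ha ha' hz => hχz z a hz fun z' hz' => ?_⟩
  · rw [hχ1, hdeg1, Nat.cast_mul]
  · have ha2 : a ^ 2 = 1 := by
      have h5 : a ^ (3 + 1) = 1 := by rw [h3] at ha; exact ha
      have h6 : a ^ 6 = 1 := ha'
      have h7 : a ^ 6 = a ^ (3 + 1) * a ^ 2 := by rw [← pow_add]
      rw [h5, one_mul] at h7
      rw [← h7, h6]
    by_cases ha1 : a = 1
    · subst ha1
      rw [hsc z' 1 hz', map_one, map_one, Units.val_one, one_mul]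
    · have h8 : ((φ a : ℂˣ) : ℂ) = -1 := by
        have h9 : ((φ a : ℂˣ) : ℂ) ^ 2 = 1 := by
          rw [← Units.val_pow_eq_pow_val, ← map_pow, ha2, map_one, Units.val_one]
        rcases sq_eq_sq_iff_eq_or_eq_neg.1 (h9.trans (one_pow 2).symm) with h10 | h10
        · exact absurd (hφ ((Units.ext h10).trans (map_one φ).symm)) ha1
        · exact h10
      rw [hodd a ha2 ha1, hsc z' a hz', h8]
      ring

end Cfsg.Agent.H7.Eight.UnSix
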