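import Cfsg.Agent.H7.Eight.UnVan
import Cfsg.Agent.H113.Two.SplitForm
import Cfsg.Agent.S0157

/-!
# The vanishing condition for forms of Witt index one (helper7)

`Opp F` : two different singular points are never orthogonal.
`sum_flag` : the sums over `F.TT U`; `inner_hc` : the vanishing condition for the function `F.hc (linDet θ₂ 1) 1`;
`inner_st` : the same for the permutation character minus one; `irr_st` : its irreducibility.
-/

set_option autoImplicit false
set_option linter.unusedSectionVars false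

open scoped ComplexConjugate
open Cfsg

namespace Cfsg.Agent.H7.Eight.UnSum

open Cfsg.Agent.OddOrderCharacters.Clifford Cfsg.Agent.Characters MulAction Module Cfsg.Agent.H53.HC
open Cfsg.Agent.H477.HC Cfsg.Agent.H477.HC.CForm Cfsg.Agent.H749.Two Cfsg.Agent.H113.PSL.Hyper
open Cfsg.Agent.H113.Two.HcOne

universe u v w

variable {K : Type u} [Field K] {V : Type v} [AddCommGroup V] [Module K V] {F : CForm K V}

/-- two different singular points are never orthogonal -/
def Opp (F : CForm K V) : Prop := ∀ U ∈ F.Om 1, ∀ W ∈ F.Om 1, U ≠ W → ¬ U ≤ F.perp W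

/-- multiplicativity of the value on a line -/
theorem flagTerm_mul {θ : Kˣ →* ℂˣ} {W : Submodule K V} (hW : finrank K W = 1) {t : F.iso} {a : Kˣ}
    (h : ∀ w ∈ W, (t : V ≃ₗ[K] V) w = (a : K) • w) (b : F.iso) :
    flagTerm F.iso.subtype (linDet θ 1) (t * b) W =
      ((θ a : ℂˣ) : ℂ) * flagTerm F.iso.subtype (linDet θ 1) b W := by
  classical
  have hfd : FiniteDimensional K W := .of_finrank_pos (by omega)
  let bs : Basis (Fin 1) K W := finBasisOfFinrankEq K W hW
  have htW : W.map (F.iso.subtype t : V →ₗ[K] V) = W := by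
    ext x
    constructor
    · rintro ⟨w, hw, rfl⟩
      change (t : V ≃ₗ[K] V) w ∈ W
      rw [h w hw]
      exact W.smul_mem _ hw
    · intro hx
      refine ⟨((a⁻¹ : Kˣ) : K) • x, W.smul_mem _ hx, ?_⟩
      change (t : V ≃ₗ[K] V) (((a⁻¹ : Kˣ) : K) • x) = x
      rw [h _ (W.smul_mem _ hx), smul_smul, Units.mul_inv, one_smul]
  by_cases hb : W.map (F.iso.subtype b : V →ₗ[K] V) = W
  · have htb : W.map (F.iso.subtype (t * b) : V →ₗ[K] V) = W := by
      rw [map_mul_apply, hb, htW]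
    rw [flagTerm_of F.iso.subtype _ htb, flagTerm_of F.iso.subtype _ hb, cl_linDet bs, cl_linDet bs]
    have e1 : LinearEquiv.det (res (F.iso.subtype (t * b)) W htb) =
        a * LinearEquiv.det (res (F.iso.subtype b) W hb) := by
      apply Units.ext
      rw [LinearEquiv.coe_det, Units.val_mul, LinearEquiv.coe_det]
      have e2 : ((res (F.iso.subtype (t * b)) W htb : W ≃ₗ[K] W) : W →ₗ[K] W) =
          (a : K) • ((res (F.iso.subtype b) W hb : W ≃ₗ[K] W) : W →ₗ[K] W) := by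
        ext w
        change ((t * b : F.iso) : V ≃ₗ[K] V) w = (a : K) • ((b : V ≃ₗ[K] V) w)
        have hbw : (b : V ≃ₗ[K] V) w ∈ W.map (F.iso.subtype b : V →ₗ[K] V) := ⟨w, w.2, rfl⟩
        rw [hb] at hbw
        exact h _ hbw
      rw [e2, LinearMap.det_smul, hW, pow_one]
    rw [e1, map_mul, Units.val_mul]
  · have htb : ¬ W.map (F.iso.subtype (t * b) : V →ₗ[K] V) = W := by
      intro h1
      apply hb
      rw [map_mul_apply] at h1
      have h3 : ∀ W' : Submodule K V, (W'.map (F.iso.subtype t : V →ₗ[K] V)).map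
          (F.iso.subtype t⁻¹ : V →ₗ[K] V) = W' := by
        intro W'
        rw [← map_mul_apply, inv_mul_cancel, map_one]
        exact Submodule.map_id _
      rw [← h3 (W.map (F.iso.subtype b : V →ₗ[K] V)), h1]
      conv_lhs => rw [← htW]
      exact h3 W
    unfold flagTerm
    rw [dif_neg htb, dif_neg hb, mul_zero]

/-- a sum over a group, multiplied by `μ ≠ 1` under a translation -/
theorem sum_zero {G : Type*} [Group G] {H : Subgroup G} [Fintype H] {f : G → ℂ} {t : G} (ht : t ∈ H) {μ : ℂ}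
    (hμ : μ ≠ 1) (h : ∀ b, f (t * b) = μ * f b) : ∑ b : H, f b = 0 := by
  have h1 : ∑ b : H, f b = μ * ∑ b : H, f b := by
    rw [Finset.mul_sum, ← Equiv.sum_comp (Equiv.mulLeft (⟨t, ht⟩ : H))]
    exact Finset.sum_congr rfl fun b _ => h b
  have h2 : (μ - 1) * ∑ b : H, f b = 0 := by linear_combination -h1
  exact (mul_eq_zero.1 h2).resolve_left (sub_ne_zero.2 hμ)

/-- values of linear characters have absolute value one -/
theorem conj_val [Finite K] (θ : Kˣ →* ℂˣ) (a : Kˣ) : ((θ a : ℂˣ) : ℂ) * conj ((θ a : ℂˣ) : ℂ) = 1 := by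
  have h1 : ((θ a : ℂˣ) : ℂ) ^ Nat.card Kˣ = 1 := by
    rw [← Units.val_pow_eq_pow_val, ← map_pow, pow_card_eq_one', map_one, Units.val_one]
  have h2 := Complex.norm_eq_one_of_pow_eq_one h1 Nat.card_pos.ne'
  rw [Complex.mul_conj, Complex.normSq_eq_norm_sq, h2]
  norm_num

/-- the torus element attached to two points which are not orthogonal -/
theorem exists_tor [FiniteDimensional K V] {U W : Submodule K V} (hU : U ∈ F.Om 1) (hW : W ∈ F.Om 1)
    (h : ¬ U ≤ F.perp W) (a : Kˣ) : ∃ t : F.iso, t ∈ F.TT U ∧ (∀ u ∈ U, (t : V ≃ₗ[K] V) u = (a : K) • u) ∧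
      ∀ w ∈ W, (t : V ≃ₗ[K] V) w = (((Units.map (F.σ : K →* K) a)⁻¹ : Kˣ) : K) • w := by
  classical
  obtain ⟨x, hx, hx'⟩ := Set.not_subset.1 h
  have hx'' : ¬ ∀ w ∈ W, F.B x w = 0 := hx'
  push Not at hx''
  obtain ⟨y, hy, hxy⟩ := hx''
  have hspU : ∀ u ∈ U, ∃ c : K, u = c • x := by
    intro u hu
    have hx0 : (⟨x, hx⟩ : U) ≠ 0 := by
      intro h0
      have : x = 0 := congrArg Subtype.val h0
      rw [this, F.B_zero_left] at hxy
      exact hxy rfl
    obtain ⟨c, hc⟩ := (finrank_eq_one_iff_of_nonzero' (⟨x, hx⟩ : U) hx0).1 hU.2 ⟨u, hu⟩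
    exact ⟨c, (congrArg Subtype.val hc).symm⟩
  have hspW : ∀ w ∈ W, ∃ c : K, w = c • y := by
    intro w hw
    have hy0 : (⟨y, hy⟩ : W) ≠ 0 := by
      intro h0
      have : y = 0 := congrArg Subtype.val h0
      rw [this, F.B_zero_right] at hxy
      exact hxy rfl
    obtain ⟨c, hc⟩ := (finrank_eq_one_iff_of_nonzero' (⟨y, hy⟩ : W) hy0).1 hW.2 ⟨w, hw⟩
    exact ⟨c, (congrArg Subtype.val hc).symm⟩
  obtain ⟨t, h1, h2, -, h4⟩ := F.exists_levi hU.1 hW.1
    (fun w hw hw0 => by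
      obtain ⟨c, rfl⟩ := hspU w hw
      have h5 := hw0 y hy
      rw [F.B_smul_left] at h5
      rw [(mul_eq_zero.1 h5).resolve_right hxy, zero_smul])
    (fun w hw hw0 => by
      obtain ⟨c, rfl⟩ := hspW w hw
      have h5 := hw0 x hx
      rw [F.B_smul_right] at h5
      have h6 : F.σ c = 0 := (mul_eq_zero.1 h5).resolve_right hxy
      rw [map_eq_zero] at h6
      rw [h6, zero_smul])
    (LinearEquiv.smulOfNeZero K U (a : K) a.ne_zero)
  have h1' : ∀ u ∈ U, (t : V ≃ₗ[K] V) u = (a : K) • u := fun u hu => h1 ⟨u, hu⟩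
  refine ⟨t, h4.1, h1', fun w hw => ?_⟩
  obtain ⟨c, hc⟩ := hspW _ (h2 y hy)
  have h5 := F.iso_B t x y
  rw [h1' x hx, hc, F.B_smul_left, F.B_smul_right] at h5
  have h6 : (a : K) * F.σ c = 1 := mul_right_cancel₀ hxy (by rw [one_mul, mul_assoc]; exact h5)
  have h7 : F.σ a * c = 1 := by
    have := congrArg F.σ h6
    rwa [map_mul, F.σσ, map_one] at this
  have h8 : c = (((Units.map (F.σ : K →* K) a)⁻¹ : Kˣ) : K) := by
    rw [Units.val_inv_eq_inv_val, Units.coe_map]
    exact eq_inv_of_mul_eq_one_right h7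
  obtain ⟨d, rfl⟩ := hspW w hw
  rw [map_smul, hc, h8, smul_comm]

/-- every point has an opposite one -/
theorem exists_opp_pt [FiniteDimensional K V] {U : Submodule K V} (hU : U ∈ F.Om 1) :
    ∃ W ∈ F.Om 1, ¬ U ≤ F.perp W := by
  obtain ⟨W, hW, h⟩ := F.exists_opp hU
  refine ⟨W, hW, fun h1 => ?_⟩
  rw [inf_eq_left.2 h1] at h
  have := hU.2
  rw [h, finrank_bot] at this
  omega

/-- **the sums** -/
theorem sum_flag [Finite K] [FiniteDimensional K V] (ho : Opp F) {θ₁ θ₂ : Kˣ →* ℂˣ} (h1 : ∃ a, θ₂ a ≠ θ₁ a)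
    (h2 : ∃ a : Kˣ, θ₂ (Units.map (F.σ : K →* K) a)⁻¹ ≠ θ₁ a) {U W : Submodule K V} (hU : U ∈ F.Om 1) (hW : W ∈ F.Om 1)
    [Fintype (F.TT U)] :
    ∑ b : F.TT U, flagTerm F.iso.subtype (linDet θ₂ 1) b W * conj (flagTerm F.iso.subtype (linDet θ₁ 1) b U) = 0 := by
  classical
  have key : ∀ (c a : Kˣ) (t : F.iso), t ∈ F.TT U → (∀ u ∈ U, (t : V ≃ₗ[K] V) u = (a : K) • u) →
      (∀ w ∈ W, (t : V ≃ₗ[K] V) w = (c : K) • w) → θ₂ c ≠ θ₁ a →
      ∑ b : F.TT U, flagTerm F.iso.subtype (linDet θ₂ 1) b W *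
        conj (flagTerm F.iso.subtype (linDet θ₁ 1) b U) = 0 := by
    intro c a t ht ha hc hne
    refine sum_zero (H := F.TT U) (t := t)
      (f := fun b => flagTerm F.iso.subtype (linDet θ₂ 1) b W * conj (flagTerm F.iso.subtype (linDet θ₁ 1) b U))
      ht (μ := ((θ₂ c : ℂˣ) : ℂ) * conj ((θ₁ a : ℂˣ) : ℂ)) ?_ ?_
    · intro h3
      apply hne
      apply Units.ext
      have h4 := conj_val θ₁ a
      linear_combination ((θ₁ a : ℂˣ) : ℂ) * h3 - ((θ₂ c : ℂˣ) : ℂ) * h4
    · intro b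
      change flagTerm F.iso.subtype (linDet θ₂ 1) (t * b) W * conj (flagTerm F.iso.subtype (linDet θ₁ 1) (t * b) U) = _
      rw [flagTerm_mul hW.2 hc, flagTerm_mul hU.2 ha, map_mul]
      ring
  by_cases hUW : U = W
  · subst hUW
    obtain ⟨a, ha⟩ := h1
    obtain ⟨W', hW', h3⟩ := exists_opp_pt hU
    obtain ⟨t, ht, ht1, -⟩ := exists_tor hU hW' h3 a
    exact key a a t ht ht1 ht1 ha
  · obtain ⟨a, ha⟩ := h2
    obtain ⟨t, ht, ht1, ht2⟩ := exists_tor hU hW (ho U hU W hW hUW) a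
    exact key _ a t ht ht1 ht2 ha

/-- **the vanishing condition for `F.hc`** -/
theorem inner_hc [Finite K] [FiniteDimensional K V] (ho : Opp F) [Fintype (F.Om 1)] {θ₁ θ₂ : Kˣ →* ℂˣ}
    (h1 : ∃ a, θ₂ a ≠ θ₁ a)
    (h2 : ∃ a : Kˣ, θ₂ (Units.map (F.σ : K →* K) a)⁻¹ ≠ θ₁ a) {U : Submodule K V} (hU : U ∈ F.Om 1)
    [Fintype (F.TT U)] :
    ∑ b : F.TT U, F.hc (linDet θ₂ 1) (fun _ _ => 1) b * conj (flagTerm F.iso.subtype (linDet θ₁ 1) b U) = 0 := by
  classical
  have e1 : ∀ b : F.TT U, F.hc (linDet θ₂ 1) (fun _ _ => 1) b * conj (flagTerm F.iso.subtype (linDet θ₁ 1) b U) =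
      ∑ W : F.Om 1, flagTerm F.iso.subtype (linDet θ₂ 1) b W.1 *
        conj (flagTerm F.iso.subtype (linDet θ₁ 1) b U) := by
    intro b
    unfold CForm.hc
    rw [Finset.sum_mul]
    exact Finset.sum_congr rfl fun W _ => by rw [mul_one]
  rw [Finset.sum_congr rfl fun b _ => e1 b, Finset.sum_comm]
  exact Finset.sum_eq_zero fun W _ => sum_flag ho h1 h2 hU W.2

/-- the number of fixed points -/
theorem hc_one_eq [Finite V] [FiniteDimensional K V] [Fintype (F.Om 1)] (g : F.iso) :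
    F.hc (linDet (1 : Kˣ →* ℂˣ) 1) (fun _ _ => 1) g = (Nat.card (MulAction.fixedBy F.Pt g) : ℂ) := by
  classical
  unfold CForm.hc
  have e1 : ∀ W : F.Om 1, flagTerm F.iso.subtype (linDet (1 : Kˣ →* ℂˣ) 1) g W.1 * 1 =
      if W.1.map (F.iso.subtype g : V →ₗ[K] V) = W.1 then 1 else 0 := by
    intro W
    rw [mul_one]
    split_ifs with h
    · rw [flagTerm_of F.iso.subtype _ h, cl_linDet (finBasisOfFinrankEq K W.1 W.2.2)]
      rfl
    · unfold flagTerm
      rw [dif_neg h]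
  rw [Finset.sum_congr rfl fun W _ => e1 W, Finset.sum_boole]
  congr 1
  rw [← Fintype.card_subtype, ← Nat.card_eq_fintype_card]
  refine Nat.card_congr
    { toFun := fun W => ⟨⟨W.1.1, W.1.2⟩, Subtype.ext W.2⟩
      invFun := fun x => ⟨⟨x.1.1, x.1.2⟩, congrArg Subtype.val x.2⟩
      left_inv := fun W => rfl
      right_inv := fun x => rfl }

/-- **the vanishing condition for the permutation character minus one** -/
theorem inner_st [Finite K] [FiniteDimensional K V] [Finite V] (ho : Opp F) {θ₁ : Kˣ →* ℂˣ}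
    (h1 : ∃ a, θ₁ a ≠ 1) {U : Submodule K V} (hU : U ∈ F.Om 1) [Fintype (F.TT U)] :
    ∑ b : F.TT U, ((Nat.card (MulAction.fixedBy F.Pt (b : F.iso)) : ℂ) - 1) *
      conj (flagTerm F.iso.subtype (linDet θ₁ 1) b U) = 0 := by
  classical
  have := finite_Om F 1
  let _ := Fintype.ofFinite (F.Om 1)
  obtain ⟨a, ha⟩ := h1
  have h2 := inner_hc ho (θ₁ := θ₁) (θ₂ := 1) ⟨a, fun h => ha h.symm⟩ ⟨a, fun h => ha h.symm⟩ hU
  have h3 : ∑ b : F.TT U, conj (flagTerm F.iso.subtype (linDet θ₁ 1) b U) = 0 := by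
    obtain ⟨W', hW', h3⟩ := exists_opp_pt hU
    obtain ⟨t, ht, ht1, -⟩ := exists_tor hU hW' h3 a
    refine sum_zero (H := F.TT U) (t := t) (f := fun b => conj (flagTerm F.iso.subtype (linDet θ₁ 1) b U))
      ht (μ := conj ((θ₁ a : ℂˣ) : ℂ)) ?_ ?_
    · intro h4
      apply ha
      apply Units.ext
      have h5 := conj_val θ₁ a
      rw [h4, mul_one] at h5
      rw [h5, Units.val_one]
    · intro b
      change conj (flagTerm F.iso.subtype (linDet θ₁ 1) (t * b) U) = _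
      rw [flagTerm_mul hU.2 ht1, map_mul]
  have e1 : ∀ b : F.TT U, ((Nat.card (MulAction.fixedBy F.Pt (b : F.iso)) : ℂ) - 1) *
      conj (flagTerm F.iso.subtype (linDet θ₁ 1) b U) =
      F.hc (linDet (1 : Kˣ →* ℂˣ) 1) (fun _ _ => 1) b * conj (flagTerm F.iso.subtype (linDet θ₁ 1) b U) -
        conj (flagTerm F.iso.subtype (linDet θ₁ 1) b U) := by
    intro b
    rw [hc_one_eq]
    ring
  rw [Finset.sum_congr rfl fun b _ => e1 b, Finset.sum_sub_distrib, h2, h3, sub_zero]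

/-- **the Steinberg character** -/
theorem irr_st [Finite K] [FiniteDimensional K V] [Finite V] (ho : Opp F) (h2 : 2 ≤ Nat.card F.Pt) :
    IsIrrCharacter F.iso (fun g => (Nat.card (MulAction.fixedBy F.Pt g) : ℂ) - 1) := by
  classical
  have := finite_iso F
  have : Finite F.Pt := finite_Om F 1
  have hpp : ∀ x y : F.Pt, x ≠ y → ¬ F.Perp x y := by
    intro x y hxy h
    exact ho x.1 x.2 y.1 y.2 (fun h1 => hxy (Subtype.ext h1)) fun u hu v hv => h u hu v hv
  have hmp : MulAction.IsMultiplyPretransitive F.iso F.Pt 2 := by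
    rw [MulAction.is_two_pretransitive_iff]
    intro a b c d hab hcd
    exact F.trans_opp (hpp a b hab) (hpp c d hcd)
  have hpt : MulAction.IsPretransitive F.iso F.Pt := by
    rw [← MulAction.is_one_pretransitive_iff]
    exact MulAction.isMultiplyPretransitive_of_le (n := 2) (by norm_num) h2
  exact (Cfsg.Agent.S0157.result F.Pt h2).2 hmp

end Cfsg.Agent.H7.Eight.UnSum
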