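import Cfsg.Agent.H7.Eight.UnFrame
import Cfsg.Agent.H7.Eight.UnSum
import Cfsg.Agent.LieClassical.HermBasic

/-!
# `GU_2(q)` and `GU_3(q)`: the number of points and the Steinberg character (helper7)

`opp_herm`, `card_pt` : `|Om 1| = p^m + 1`, `m > 0`; `st_herm` : the Steinberg character.
-/

set_option autoImplicit false
set_option linter.unusedSectionVars false

open scoped ComplexConjugate
open Cfsg

namespace Cfsg.Agent.H7.Eight.UnSt

open Cfsg.Agent.Characters Module Cfsg.Agent.H53.HC Cfsg.Agent.H477.HC Cfsg.Agent.H477.HC.CForm Cfsg.Agent.H749.Two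
open Cfsg.Agent.H7.Eight.UnFrame Cfsg.Agent.H7.Eight.UnSum
open Cfsg.Agent.H113.Two.HcOne (rad)

universe u

variable {K : Type u} [Field K] [Fintype K] {q : ℕ}

theorem opp_herm (hq : Nat.card K = q ^ 2) {n : ℕ} (hn : n ≤ 3) : Opp (hermF K hq n) := by
  intro U hU W hW hUW hle
  have hts := (hermF K hq n).TS_sup hU.1 hW.1 hle
  have h1 := ts_le hq n hts
  have h2 := Submodule.finrank_sup_add_finrank_inf_eq U W
  have hU2 := hU.2
  have hW2 := hW.2
  rw [hU2, hW2] at h2
  have h3 : finrank K (U ⊓ W : Submodule K (Fin n → K)) < 1 := by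
    by_contra h
    have e1 : U ⊓ W = U := Submodule.eq_of_le_of_finrank_le inf_le_left (by omega)
    have e2 : U ⊓ W = W := Submodule.eq_of_le_of_finrank_le inf_le_right (by omega)
    exact hUW (e1.symm.trans e2)
  omega

/-- the hyperbolic plane -/
theorem hermF_hyp (hq : Nat.card K = q ^ 2) (n : ℕ) : ∃ e f : Fin (1 + (1 + n)) → K,
    Hyp (hermF K hq (1 + (1 + n))) (hermF K hq n) e f (jherm K 1 n) := by
  obtain ⟨e, f, hee, hff, hef, hje, hjf⟩ := hermF_fr hq 1 n
  have hjB : ∀ x y, (hermF K hq (1 + (1 + n))).B (jherm K 1 n x) (jherm K 1 n y) = (hermF K hq n).B x y := by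
    intro x y
    simp [hermForm, Fin.sum_univ_add]
  have hjQ : ∀ x, (hermF K hq (1 + (1 + n))).Q (jherm K 1 n x) = (hermF K hq n).Q x := by
    intro x
    simp [hermForm, Fin.sum_univ_add]
  obtain ⟨-, hc⟩ := cmp_of_frame (F := hermF K hq (1 + (1 + n))) (F' := hermF K hq n) (j := jherm K 1 n) rfl hee hff
    hef (fun i => hee i i) hjB hjQ hje hjf (by simp; ring)
  refine ⟨e 0, f 0, ⟨hee 0 0, hee 0 0⟩, ⟨hff 0 0, hff 0 0⟩, by rw [hef, if_pos rfl], hjB, hjQ, fun x => hje x 0,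
    fun x => hjf x 0, fun v h1 h2 => ?_⟩
  have hsp : Submodule.span K (Set.range e) = Submodule.span K {e 0} := by
    congr 1
    ext x
    constructor
    · rintro ⟨i, rfl⟩
      rw [Subsingleton.elim i 0]
      exact rfl
    · intro hx
      exact ⟨0, (Set.mem_singleton_iff.1 hx).symm⟩
  obtain ⟨w, hw, x, hx⟩ := hc.j2 v (by
    rw [hsp]
    intro w hw
    obtain ⟨c, rfl⟩ := Submodule.mem_span_singleton.1 hw
    rw [CForm.B_smul_right, h1, mul_zero])
  rw [hsp] at hw
  obtain ⟨c, rfl⟩ := Submodule.mem_span_singleton.1 hw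
  rw [hx, CForm.B_add_left, CForm.B_smul_left, hef, if_pos rfl, hjf, mul_one, add_zero] at h2
  exact ⟨x, by rw [hx, h2, zero_smul, zero_add]⟩

theorem ani (hq : Nat.card K = q ^ 2) {n : ℕ} (hn : n ≤ 1) : ∀ x, (hermF K hq n).Sing x → x = 0 := by
  intro x hx
  have h1 : hermForm n K q x x = 0 := hx.1
  have hn' : n = 0 ∨ n = 1 := by omega
  rcases hn' with rfl | rfl
  · exact Subsingleton.elim _ _
  · unfold hermForm at h1
    rw [Fin.sum_univ_one, ← pow_succ'] at h1
    have h2 := eq_zero_of_pow_eq_zero h1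
    ext i
    rw [Subsingleton.elim i 0, h2]
    rfl

theorem comm (hq : Nat.card K = q ^ 2) {n : ℕ} (hn : n ≤ 1) : ∀ a b : (hermF K hq n).iso, a * b = b * a := by
  intro a b
  have hn' : n = 0 ∨ n = 1 := by omega
  apply Subtype.ext
  apply LinearEquiv.ext
  intro x
  rcases hn' with rfl | rfl
  · exact Subsingleton.elim _ _
  · have hsm : ∀ y : Fin 1 → K, y = y 0 • (fun _ => (1 : K)) := by
      intro y
      ext i
      rw [Subsingleton.elim i 0]
      simp
    have key : ∀ (g : (Fin 1 → K) ≃ₗ[K] (Fin 1 → K)) (y : Fin 1 → K), g y = (g (fun _ => (1 : K)) 0) • y := by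
      intro g y
      conv_lhs => rw [hsm y, map_smul, hsm (g (fun _ => (1 : K)))]
      conv_rhs => rw [hsm y]
      rw [smul_smul, smul_smul, mul_comm]
    change (a : (Fin 1 → K) ≃ₗ[K] (Fin 1 → K)) ((b : (Fin 1 → K) ≃ₗ[K] (Fin 1 → K)) x) =
      (b : (Fin 1 → K) ≃ₗ[K] (Fin 1 → K)) ((a : (Fin 1 → K) ≃ₗ[K] (Fin 1 → K)) x)
    rw [key a ((b : (Fin 1 → K) ≃ₗ[K] (Fin 1 → K)) x), key b x, key b ((a : (Fin 1 → K) ≃ₗ[K] (Fin 1 → K)) x), key a x,
      smul_smul, smul_smul, mul_comm]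

/-- **the number of points** -/
theorem card_pt (hq : Nat.card K = q ^ 2) {p : ℕ} [Fact p.Prime] [CharP K p] {n : ℕ} (hn : n ≤ 1) :
    ∃ m, 0 < m ∧ Nat.card (hermF K hq (1 + (1 + n))).Pt = p ^ m + 1 := by
  classical
  have := finite_iso (hermF K hq (1 + (1 + n)))
  have : Finite (hermF K hq (1 + (1 + n))).Pt := finite_Om _ 1
  obtain ⟨e, f, h⟩ := hermF_hyp hq n
  have hF : Fintype.card K = q ^ 2 := by rw [← Nat.card_eq_fintype_card, hq]
  obtain ⟨a, ha0, ha⟩ := LieClassical.HermBasic.exists_trace_zero_ne hF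
  have hq0 : q ≠ 0 := by have := two_le_of_card hq; omega
  obtain ⟨m, hm⟩ := (IsPGroup.iff_card (p := p)).1 (Cfsg.Agent.H113.Two.SplitForm.rad_isPGroup h (p := p))
  have hfe : (hermF K hq (1 + (1 + n))).B f e = 1 := by rw [h.hfe]; rfl
  have hf' : (hermF K hq (1 + (1 + n))).Sing (f + a • e) := by
    have h1 : (hermF K hq (1 + (1 + n))).B (f + a • e) (f + a • e) = 0 := by
      rw [CForm.B_add_left, CForm.B_add_right, CForm.B_add_right, CForm.B_smul_left, CForm.B_smul_left,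
        CForm.B_smul_right, CForm.B_smul_right, h.hf.2, h.he.2, h.hef, hfe]
      have h2 : (hermF K hq (1 + (1 + n))).σ a = a ^ q := powHom_apply hq a
      rw [h2]
      linear_combination ha
    exact ⟨h1, h1⟩
  have hlt := Cfsg.Agent.H113.Two.SplitForm.one_lt_rad h (f' := f + a • e) hf' (by
      rw [CForm.B_add_right, CForm.B_smul_right, h.he.2, mul_zero, add_zero, h.hef]) (by
      intro h1
      have h2 : a • e = 0 := by
        have := congrArg (fun v => v - f) h1
        simpa using this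
      exact (smul_ne_zero ha0 h.e0) h2)
  refine ⟨m, ?_, ?_⟩
  · rw [Nat.pos_iff_ne_zero]
    rintro rfl
    rw [hm, pow_zero] at hlt
    exact lt_irrefl _ hlt
  · have h1 := (Cfsg.Agent.H113.Two.SplitForm.split h (ani hq hn) (comm hq hn)).card_G
    have hpt : MulAction.IsPretransitive (hermF K hq (1 + (1 + n))).iso (hermF K hq (1 + (1 + n))).Pt := by
      refine ⟨fun x y => ?_⟩
      obtain ⟨g, hg⟩ := (hermF K hq (1 + (1 + n))).trans_Om x.2 y.2
      exact ⟨g, Subtype.ext hg⟩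
    have h2 := MulAction.index_stabilizer_of_transitive (hermF K hq (1 + (1 + n))).iso
      ((hermF K hq (1 + (1 + n))).pt e h.e0 h.he)
    have h3 := (MulAction.stabilizer (hermF K hq (1 + (1 + n))).iso
      ((hermF K hq (1 + (1 + n))).pt e h.e0 h.he)).index_mul_card
    rw [h2, h1] at h3
    have h4 := Nat.eq_of_mul_eq_mul_right Nat.card_pos h3
    rw [h4, ← hm]
    rfl

/-- **the Steinberg character** -/
theorem st_herm (hq : Nat.card K = q ^ 2) {p : ℕ} [Fact p.Prime] [CharP K p] {n : ℕ} (hn : n ≤ 1) :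
    ∃ m, 0 < m ∧ IsIrrCharacter (hermF K hq (1 + (1 + n))).iso
        (fun g => (Nat.card (MulAction.fixedBy (hermF K hq (1 + (1 + n))).Pt g) : ℂ) - 1) ∧
      (Nat.card (MulAction.fixedBy (hermF K hq (1 + (1 + n))).Pt (1 : (hermF K hq (1 + (1 + n))).iso)) : ℂ) - 1 =
        ((p ^ m : ℕ) : ℂ) ∧
      ∀ (z : (hermF K hq (1 + (1 + n))).iso) (a : K), (∀ v, (z : (Fin (1 + (1 + n)) → K) ≃ₗ[K] _) v = a • v) →
        Nat.card (MulAction.fixedBy (hermF K hq (1 + (1 + n))).Pt z) =
          Nat.card (MulAction.fixedBy (hermF K hq (1 + (1 + n))).Pt (1 : (hermF K hq (1 + (1 + n))).iso)) := by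
  classical
  have hfP : Finite (hermF K hq (1 + (1 + n))).Pt := finite_Om _ 1
  obtain ⟨m, hm0, hm⟩ := card_pt (p := p) hq hn
  have hfix : ∀ (z : (hermF K hq (1 + (1 + n))).iso) (a : K),
      (∀ v, (z : (Fin (1 + (1 + n)) → K) ≃ₗ[K] _) v = a • v) →
        Nat.card (MulAction.fixedBy (hermF K hq (1 + (1 + n))).Pt z) = Nat.card (hermF K hq (1 + (1 + n))).Pt := by
    intro z a hz
    have h1 : MulAction.fixedBy (hermF K hq (1 + (1 + n))).Pt z = Set.univ := by
      refine Set.eq_univ_of_forall fun x => Subtype.ext ?_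
      refine map_eq_of_le (hermF K hq (1 + (1 + n))).iso.subtype fun w hw => ?_
      change (z : (Fin (1 + (1 + n)) → K) ≃ₗ[K] _) w ∈ x.1
      rw [hz]
      exact x.1.smul_mem _ hw
    rw [h1]
    exact Nat.card_congr (Equiv.Set.univ _)
  have hfix1 := hfix 1 1 (fun v => (one_smul K v).symm)
  refine ⟨m, hm0, irr_st (opp_herm hq (by omega)) ?_, ?_, fun z a hz => ?_⟩
  · rw [hm]
    have : 0 < p ^ m := pow_pos (Fact.out : p.Prime).pos m
    omega
  · rw [hfix1, hm]
    push_cast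
    ring
  · rw [hfix1, hfix z a hz]

end Cfsg.Agent.H7.Eight.UnSt
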