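import Cfsg.Agent.H113.Two.HcOne

/-!
# Harish-Chandra induction from the stabiliser of a totally singular subspace: a vanishing condition (helper7)

`van_inner` : the vanishing hypothesis of helper113's `exists_hc_van` for `ψ = ψ₀ ∘ ρ`, if `c` is not a constituent of
`ψ₀` on the subgroups `F'.TT U` (`U ∈ F'.Om k`); adapted from helper113's `van_cusp`.
`exists_one_gen` : the resulting irreducible characters for `k = 1`.
-/

set_option autoImplicit false
set_option linter.unusedSectionVars false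
set_option linter.style.haveILetI false

open scoped ComplexConjugate
open Cfsg

namespace Cfsg.Agent.H7.Eight.UnVan

open Cfsg.Agent.OddOrderCharacters.Clifford Cfsg.Agent.Characters MulAction Module Cfsg.Agent.H53.HC
open Cfsg.Agent.H477.HC Cfsg.Agent.H749.Two Cfsg.Agent.H113.PSL.Hyper Cfsg.Agent.H113.PSL.Para
open Cfsg.Agent.H113.Two.HcOne

universe u v w

variable {K : Type u} [Field K] {V : Type v} [AddCommGroup V] [Module K V] {X : Type w} [AddCommGroup X] [Module K X]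
variable {F : CForm K V} {F' : CForm K X} {j : X →ₗ[K] V} {W₀ : Submodule K V}

/-- **`W₀ ⟂ W'`, `c` not a constituent of `ψ₀` on the stabilisers** -/
theorem van_inner [Finite K] [FiniteDimensional K V] [Finite V] [FiniteDimensional K X] (h : Cmp F F' j W₀) {k : ℕ}
    {c : GL (Fin k) K → ℂ} (hcf : IsClassFunction _ c) {ρ : stabW F.iso.subtype W₀ →* F'.iso}
    (hρ : ∀ (g : stabW F.iso.subtype W₀) x, ((g : F.iso) : V ≃ₗ[K] V) (j x) - j ((ρ g : X ≃ₗ[K] X) x) ∈ W₀)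
    {ψ₀ : F'.iso → ℂ} (hψ₀ : ∀ U ∈ F'.Om k, ∀ [Fintype (F'.TT U)],
      ∑ b : F'.TT U, ψ₀ b * conj (flagTerm F'.iso.subtype c b U) = 0)
    {ψ : F.iso → Submodule K V → ℂ} (hψT : ∀ W ∈ F.Om k, ∀ g ∈ F.TT W, ψ g W = ψ 1 W)
    (hψ : ∀ g : stabW F.iso.subtype W₀, ψ g W₀ = ψ₀ (ρ g))
    {W' : Submodule K V} (hW₀ : W₀ ∈ F.Om k)
    (hW' : W' ∈ F.Om k) (hperp : W₀ ≤ F.perp W') (h0 : W₀ ⊓ W' = ⊥) : F.Van c ψ W₀ W' := by
  classical
  obtain ⟨r, hr, hrj, hrW⟩ := h.exists_proj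
  have hWp : W' ≤ F.perp W₀ := fun w' hw' w hw => F.B_eq_zero (hperp hw w' hw')
  have hπ : ∀ v ∈ F.perp W₀, v - j (r v) ∈ W₀ := by
    intro v hv
    obtain ⟨w, hw, x, rfl⟩ := h.j2 v hv
    rw [map_add, hrW w hw, hrj, zero_add, add_sub_cancel_right]
    exact hw
  have hrinj : ∀ w' ∈ W', r w' = 0 → w' = 0 := by
    intro w' hw' h1
    have h2 := hπ w' (hWp hw')
    rw [h1, map_zero, sub_zero] at h2
    have : w' ∈ W₀ ⊓ W' := ⟨h2, hw'⟩
    rw [h0] at this
    exact (Submodule.mem_bot K).1 this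
  -- the new complement
  obtain ⟨δ, hδ, hδ'⟩ : ∃ δ : X →ₗ[K] V, (∀ x, δ x ∈ W₀) ∧ ∀ w' ∈ W', w' = j (r w') + δ (r w') := by
    let π : W' →ₗ[K] X := r.comp W'.subtype
    let t : W' →ₗ[K] W₀ :=
      { toFun := fun w' => ⟨(w' : V) - j (r w'), hπ _ (hWp w'.2)⟩
        map_add' := fun a b => by
          apply Subtype.ext
          change ((a : V) + b) - j (r ((a : V) + b)) = ((a : V) - j (r a)) + ((b : V) - j (r b))
          rw [map_add, map_add]; abel
        map_smul' := fun a b => by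
          apply Subtype.ext
          change (a • (b : V)) - j (r (a • (b : V))) = a • ((b : V) - j (r b))
          rw [map_smul, map_smul, smul_sub] }
    obtain ⟨s, hs⟩ := exists_factor π t (fun w' hw' => by
      have : w' = 0 := Subtype.ext (hrinj w' w'.2 hw')
      rw [this]; exact Submodule.zero_mem _)
    refine ⟨W₀.subtype.comp s, fun x => (s x).2, fun w' hw' => ?_⟩
    have h1 : ((s (π ⟨w', hw'⟩) : W₀) : V) = w' - j (r w') := congrArg Subtype.val (hs ⟨w', hw'⟩)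
    change w' = j (r w') + ((s (π ⟨w', hw'⟩) : W₀) : V)
    rw [h1]; abel
  have h' := Cmp.change h δ hδ
  set j' := j + δ with hj'
  have hj'x : ∀ x, j' x = j x + δ x := fun x => rfl
  have hrj' : ∀ x, r (j' x) = x := by
    intro x
    rw [hj'x, map_add, hrj, hrW _ (hδ x), add_zero]
  have hWj : ∀ w' ∈ W', j' (r w') = w' := fun w' hw' => by rw [hj'x]; exact (hδ' w' hw').symm
  -- the image of `W'`
  let U : Submodule K X := W'.map r
  have hU : U ∈ F'.Om k := by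
    refine ⟨⟨?_, ?_⟩, ?_⟩
    · rintro _ ⟨w', hw', rfl⟩
      rw [← h'.jQ, hWj w' hw']
      exact hW'.1.1 w' hw'
    · rintro _ ⟨w', hw', rfl⟩ _ ⟨w'', hw'', rfl⟩
      rw [← h'.jB, hWj w' hw', hWj w'' hw'']
      exact hW'.1.2 w' hw' w'' hw''
    · rw [← hW'.2]
      have hinj : Function.Injective (r.domRestrict W') := by
        rw [injective_iff_map_eq_zero]
        intro w hw
        exact Subtype.ext (hrinj w w.2 hw)
      have e : U = LinearMap.range (r.domRestrict W') := by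
        ext x
        constructor
        · rintro ⟨w', hw', rfl⟩
          exact ⟨⟨w', hw'⟩, rfl⟩
        · rintro ⟨w', rfl⟩
          exact ⟨w', w'.2, rfl⟩
      rw [e]
      exact LinearMap.finrank_range_of_inj hinj
  have hρr : ∀ (g : stabW F.iso.subtype W₀) v, v ∈ F.perp W₀ → (ρ g : X ≃ₗ[K] X) (r v) = r (((g : F.iso) : V ≃ₗ[K] V) v) := by
    intro g v hv
    have h1 := hrW _ (hρ g (r v))
    rw [map_sub, hrj, sub_eq_zero] at h1
    rw [← h1]
    have h2 : ((g : F.iso) : V ≃ₗ[K] V) (v - j (r v)) ∈ W₀ := by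
      have h3 : W₀.map (F.iso.subtype (g : F.iso) : V →ₗ[K] V) = W₀ := g.2
      have : F.iso.subtype (g : F.iso) (v - j (r v)) ∈ W₀.map (F.iso.subtype (g : F.iso) : V →ₗ[K] V) :=
        ⟨_, hπ v hv, rfl⟩
      rwa [h3] at this
    have h3 := hrW _ h2
    rw [map_sub, map_sub, sub_eq_zero] at h3
    exact h3.symm
  -- the subgroup
  let L : Subgroup F.iso := fixP F W₀ ⊓ F.TT W'
  have hL0 : L ≤ stabW F.iso.subtype W₀ := inf_le_left.trans fixP_le
  refine ⟨L, hL0, inf_le_right.trans (fun l hl => hl.1), fun {_} => ?_⟩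
  have hfinX : Finite X := Module.finite_of_finite K
  have hfinXi : Finite (X ≃ₗ[K] X) := Finite.of_injective (fun e : X ≃ₗ[K] X => (e : X → X)) DFunLike.coe_injective
  letI : Fintype (F'.TT U) := Fintype.ofFinite _
  have hmem : ∀ l : L, ρ ⟨l, hL0 l.2⟩ ∈ F'.TT U := by
    intro l
    refine F'.mem_TT_of hU.1 fun x hx => ?_
    have h1 : j' x ∈ F.perp W' := by
      intro w' hw'
      rw [← hWj w' hw', h'.jB]
      exact hx _ ⟨w', hw', rfl⟩
    have h2 := l.2.2.2 _ h1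
    have h3 := hρr ⟨l, hL0 l.2⟩ (j' x) (h'.j1 x)
    rw [hrj'] at h3
    rw [h3]
    refine ⟨_, h2, ?_⟩
    rw [map_sub, hrj']
  let f : L →* F'.TT U := (ρ.comp (Subgroup.inclusion hL0)).codRestrict (F'.TT U) hmem
  have hf : Function.Surjective f := by
    rintro ⟨b, hb⟩
    obtain ⟨r', hr', hrj'', hrW'⟩ := h'.exists_proj
    have hr'W' : ∀ w' ∈ W', r' w' = r w' := by
      intro w' hw'
      conv_lhs => rw [← hWj w' hw']
      exact hrj'' _
    have hjr : ∀ v y, F.B (j' y) (v - j' (r' v)) = 0 := by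
      intro v y
      rw [F.B_sub_right, hr', h'.jB, sub_self]
    have hjr' : ∀ v y, F.B (v - j' (r' v)) (j' y) = 0 := fun v y => F.B_eq_zero (hjr v y)
    let m : V →ₗ[K] V := (LinearMap.id - j'.comp r') + j'.comp (((b : X ≃ₗ[K] X) : X →ₗ[K] X).comp r')
    have hm : ∀ v, m v = (v - j' (r' v)) + j' ((b : X ≃ₗ[K] X) (r' v)) := fun v => rfl
    obtain ⟨gb, hgb⟩ := F.exists_iso m (fun v u => by
        have e1 : F.B v u = F.B ((v - j' (r' v)) + j' (r' v)) ((u - j' (r' u)) + j' (r' u)) := by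
          rw [sub_add_cancel, sub_add_cancel]
        rw [hm, hm, e1, F.B_add_left, F.B_add_right, F.B_add_right, F.B_add_left, F.B_add_right, F.B_add_right,
          hjr', hjr, hjr', hjr, h'.jB, h'.jB, F'.iso_B])
      (fun v => by
        have e1 : F.Q v = F.Q ((v - j' (r' v)) + j' (r' v)) := by rw [sub_add_cancel]
        rw [hm, e1, F.Q_add, F.Q_add, hjr', hjr', h'.jQ, h'.jQ, F'.iso_Q])
    have hg0 : ∀ w ∈ W₀, (gb : V ≃ₗ[K] V) w = w := by
      intro w hw
      rw [hgb, hm, hrW' w hw, map_zero, map_zero, map_zero, sub_zero, add_zero]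
    have hg2 : gb ∈ F.TT W' := by
      refine F.mem_TT_of hW'.1 fun v hv => ?_
      have h1 : r' v ∈ F'.perp U := by
        rintro _ ⟨w', hw', rfl⟩
        refine F'.B_eq_zero ?_
        rw [← hr', hWj w' hw']
        exact F.B_eq_zero (hv w' hw')
      obtain ⟨w', hw', hw''⟩ := hb.2 _ h1
      have h2 : (gb : V ≃ₗ[K] V) v - v = w' := by
        rw [hgb, hm, ← hWj w' hw', hw'', map_sub]
        change v - j' (r' v) + j' (b.1 (r' v)) - v = j' (b.1 (r' v)) - j' (r' v)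
        abel
      rw [h2]; exact hw'
    refine ⟨⟨gb, hg0, hg2⟩, ?_⟩
    apply Subtype.ext
    change ρ ⟨gb, _⟩ = b
    apply Subtype.ext
    ext x
    have h1 := hrW _ (hρ ⟨gb, fixP_le hg0⟩ x)
    rw [map_sub, hrj, sub_eq_zero] at h1
    rw [← h1]
    change r ((gb : V ≃ₗ[K] V) (j x)) = _
    have h2 : j x = j' x - δ x := by rw [hj'x]; abel
    rw [h2, map_sub, hg0 _ (hδ x), map_sub, hrW _ (hδ x), sub_zero, hgb, hm, hrj'', sub_self, zero_add, hrj']
  have b₀ : Basis (Fin k) K W₀ := finBasisOfFinrankEq K W₀ hW₀.2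
  let e : W' ≃ₗ[K] U := LinearEquiv.ofBijective (r.submoduleMap W') ⟨by
      rw [injective_iff_map_eq_zero]
      intro w hw
      exact Subtype.ext (hrinj w w.2 (congrArg Subtype.val hw)), r.submoduleMap_surjective W'⟩
  have he : ∀ w : W', ((e w : U) : X) = r w := fun w => rfl
  have e1 : ∀ l : L, (flagTerm F.iso.subtype c l W₀ * ψ l W₀) * conj (flagTerm F.iso.subtype c l W' * ψ l W') =
      (fun a : F'.TT U => (ψ₀ a * conj (flagTerm F'.iso.subtype c a U)) * (c 1 * conj (ψ 1 W'))) (f l) := by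
    intro l
    have hl1 : W₀.map (F.iso.subtype (l : F.iso) : V →ₗ[K] V) = W₀ := fixP_le l.2.1
    have hl2 : W'.map (F.iso.subtype (l : F.iso) : V →ₗ[K] V) = W' := l.2.2.1
    have hl3 : U.map (F'.iso.subtype ((f l : F'.TT U) : F'.iso) : X →ₗ[K] X) = U := (f l).2.1
    rw [flagTerm_of F.iso.subtype c hl1, flagTerm_of F.iso.subtype c hl2, hψT _ hW' _ l.2.2]
    have e3 : res (F.iso.subtype (l : F.iso)) W₀ hl1 = 1 := by
      ext w
      exact l.2.1 w w.2
    have e4 : res (F'.iso.subtype ((f l : F'.TT U) : F'.iso)) U hl3 =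
        (e.symm.trans (res (F.iso.subtype (l : F.iso)) W' hl2)).trans e := by
      ext u
      obtain ⟨w, rfl⟩ := e.surjective u
      rw [LinearEquiv.trans_apply, LinearEquiv.trans_apply, LinearEquiv.symm_apply_apply, he]
      exact hρr ⟨l, hL0 l.2⟩ (w : V) (hWp w.2)
    rw [e3, cl_one hcf b₀, hψ ⟨l, hL0 l.2⟩]
    change _ = (ψ₀ (ρ ⟨l, hL0 l.2⟩) * conj (flagTerm F'.iso.subtype c ((f l : F'.TT U) : F'.iso) U)) * _
    rw [flagTerm_of F'.iso.subtype c hl3, e4, cl_conj hcf, map_mul]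
    ring
  rw [Finset.sum_congr rfl fun l _ => e1 l,
    sum_comp_hom f hf (fun a : F'.TT U => (ψ₀ a * conj (flagTerm F'.iso.subtype c a U)) * (c 1 * conj (ψ 1 W'))),
    ← Finset.sum_mul, hψ₀ U hU, zero_mul, mul_zero]

/-- **Harish-Chandra induction from the stabiliser of a singular point, with a general character of the smaller group** -/
theorem exists_one_gen [Finite K] [FiniteDimensional K V] [Finite V] [FiniteDimensional K X] (h : Cmp F F' j W₀)
    (hW₀ : W₀ ∈ F.Om 1) {θ : Kˣ →* ℂˣ} (hθ : ∃ z : Kˣ, θ (z * Units.map (F.σ : K →* K) z) ≠ 1)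
    {ψ₀ : F'.iso → ℂ} (hψ : IsIrrCharacter _ ψ₀)
    (hψ₀ : ∀ U ∈ F'.Om 1, ∀ [Fintype (F'.TT U)],
      ∑ b : F'.TT U, ψ₀ b * conj (flagTerm F'.iso.subtype (linDet θ 1) b U) = 0) :
    ∃ χ : F.iso → ℂ, IsIrrCharacter F.iso χ ∧ χ 1 = Nat.card (F.Om 1) * ψ₀ 1 ∧
      ∀ (z : F.iso) (a : Kˣ), (∀ v, (z : V ≃ₗ[K] V) v = (a : K) • v) →
        (∀ z' : F'.iso, (∀ x, (z' : X ≃ₗ[K] X) x = (a : K) • x) → ((θ a : ℂˣ) : ℂ) * ψ₀ z' = ψ₀ 1) → χ z = χ 1 := by
  classical
  have := finite_iso F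
  have hc := cusOne K F.σ hθ
  obtain ⟨ρ, hρ1, hρ2, hρ3⟩ := h.exists_rho
  obtain ⟨r, hr, hrj, hrW⟩ := h.exists_proj
  have hsurj : Function.Surjective ρ := fun b => by
    obtain ⟨g, hg, -⟩ := hρ3 1 b
    exact ⟨g, hg⟩
  have hirr := Core.isIrr_comp ρ hsurj hψ
  have hcl1 := Core.isIrr_isClassFunction hirr
  have hψT : ∀ W ∈ F.Om 1, ∀ g ∈ F.TT W, psf F W₀ (ψ₀ ∘ ρ) g W = psf F W₀ (ψ₀ ∘ ρ) 1 W := by
    intro W hWk g hg
    obtain ⟨x, hx⟩ := F.trans_Om hW₀ hWk
    have h1 := TT_conj hx hg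
    have h2 : x⁻¹ * 1 * x ∈ stabW F.iso.subtype W₀ := by
      rw [mul_one, inv_mul_cancel]; exact Subgroup.one_mem _
    rw [psf_eq hcl1 hx h1.1, psf_eq hcl1 hx h2, Function.comp_apply, Function.comp_apply, hρ2 _ h1]
    congr 1
    rw [show (⟨x⁻¹ * 1 * x, h2⟩ : stabW F.iso.subtype W₀) = 1 from Subtype.ext (by
      change x⁻¹ * 1 * x = 1
      group), map_one]
  obtain ⟨χ, hχ, hχ1, hχz⟩ := exists_hc_van hc hW₀ hirr (fun g hg => by
    rw [Function.comp_apply, Function.comp_apply, hρ2 g hg, map_one])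
    (fun W' hW' h2 h3 => van_inner h (Core.isIrr_isClassFunction hc.irr) hρ1 hψ₀ hψT (fun g => by
      rw [psf_self hcl1]; rfl) hW₀ hW' h2 h3)
  refine ⟨χ, hχ, by rw [hχ1, Function.comp_apply, map_one, dg_one], fun z a hz h1 => hχz z a hz fun hs => ?_⟩
  rw [Function.comp_apply, Function.comp_apply, map_one]
  unfold linDet
  have e1 : Matrix.GeneralLinearGroup.det (Matrix.GeneralLinearGroup.scalar (Fin 1) a) = a := by
    apply Units.ext
    rw [Matrix.GeneralLinearGroup.val_det_apply, Matrix.GeneralLinearGroup.coe_scalar]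
    simp
  rw [e1, map_one, map_one, Units.val_one, one_mul]
  refine h1 _ fun x => ?_
  have h2 := hrW _ (hρ1 ⟨z, hs⟩ x)
  rw [map_sub, hrj, sub_eq_zero] at h2
  rw [← h2]
  change r ((z : V ≃ₗ[K] V) (j x)) = _
  rw [hz, map_smul, hrj]

end Cfsg.Agent.H7.Eight.UnVan
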